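import Mathlib

set_option autoImplicit false

/-! Groups `D` with `V = Ω₁(D)` central and all squares in `V`: the anisotropic quadratic map. -/

open Subgroup

namespace H87.OS

universe u

/-- context: `V = Ω₁(D)` central, squares in `V` -/
structure Cx {D : Type u} [Group D] (V : Subgroup D) : Prop where
  one : ∀ x : D, x ∈ V ↔ x ^ 2 = 1
  cen : ∀ v ∈ V, ∀ x : D, v * x = x * v
  sqm : ∀ x : D, x ^ 2 ∈ V

namespace Cx

variable {D : Type u} [Group D] {V : Subgroup D}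

theorem com (h : Cx V) (x y : D) : x * y * x⁻¹ * y⁻¹ ∈ V := by
  have h1 : x * y * x⁻¹ * y⁻¹ = (x * y) ^ 2 * ((x ^ 2)⁻¹ * (y ^ 2)⁻¹) := by
    have h2 := h.cen _ (V.inv_mem (h.sqm x)) y⁻¹
    rw [pow_two, pow_two] at *
    calc x * y * x⁻¹ * y⁻¹ = (x * y) * (x * y) * (y⁻¹ * (x * x)⁻¹ * y⁻¹) := by group
      _ = (x * y) * (x * y) * ((x * x)⁻¹ * y⁻¹ * y⁻¹) := by rw [h2]
      _ = _ := by group
  rw [h1]
  exact V.mul_mem (h.sqm _) (V.mul_mem (V.inv_mem (h.sqm _)) (V.inv_mem (h.sqm _)))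

/-- the quadratic map -/
def sq (h : Cx V) (x : D) : V := ⟨x ^ 2, h.sqm x⟩

/-- the commutator map -/
def B (h : Cx V) (x y : D) : V := ⟨x * y * x⁻¹ * y⁻¹, h.com x y⟩

variable (h : Cx V)
include h

theorem vv (v : V) : v * v = 1 := by
  apply Subtype.ext
  have := (h.one v).1 v.2
  rw [pow_two] at this
  exact this

theorem vinv (v : V) : v⁻¹ = v := by
  rw [inv_eq_iff_mul_eq_one]; exact h.vv v

theorem vcomm (v w : V) : v * w = w * v := Subtype.ext (h.cen v v.2 w)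

theorem B_mul_left (x y z : D) : h.B (x * y) z = h.B x z * h.B y z := by
  apply Subtype.ext
  change (x * y) * z * (x * y)⁻¹ * z⁻¹ = (x * z * x⁻¹ * z⁻¹) * (y * z * y⁻¹ * z⁻¹)
  have h1 := h.cen _ (h.com y z) (z * x⁻¹ * z⁻¹)
  have h2 : (x * z * x⁻¹ * z⁻¹) * (y * z * y⁻¹ * z⁻¹) = x * ((z * x⁻¹ * z⁻¹) * (y * z * y⁻¹ * z⁻¹)) := by group
  rw [h2, ← h1]
  group

theorem B_symm (x y : D) : h.B x y = h.B y x := by
  rw [← h.vinv (h.B y x)]
  apply Subtype.ext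
  change x * y * x⁻¹ * y⁻¹ = (y * x * y⁻¹ * x⁻¹)⁻¹
  group

theorem B_mul_right (x y z : D) : h.B x (y * z) = h.B x y * h.B x z := by
  rw [h.B_symm, h.B_mul_left, h.B_symm y, h.B_symm z]

theorem sq_mul (x y : D) : h.sq (x * y) = h.sq x * h.sq y * h.B x y := by
  rw [h.B_symm]
  apply Subtype.ext
  change (x * y) ^ 2 = x ^ 2 * y ^ 2 * (y * x * y⁻¹ * x⁻¹)
  have h1 : y * x = (y * x * y⁻¹ * x⁻¹) * (x * y) := by group
  have hc := h.cen _ (h.com y x)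
  rw [← hc (x ^ 2 * y ^ 2)]
  calc (x * y) ^ 2 = x * (y * x) * y := by rw [pow_two]; group
    _ = x * ((y * x * y⁻¹ * x⁻¹) * (x * y)) * y := by rw [← h1]
    _ = (y * x * y⁻¹ * x⁻¹) * x * (x * y) * y := by
      rw [hc x]
      simp only [mul_assoc]
    _ = _ := by
      simp only [pow_two, mul_assoc]

theorem mem_iff_sq (x : D) : x ∈ V ↔ h.sq x = 1 := by
  rw [h.one]
  constructor
  · intro h1; exact Subtype.ext h1
  · intro h1; exact congrArg Subtype.val h1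

theorem B_of_mem {v : D} (hv : v ∈ V) (x : D) : h.B v x = 1 := by
  apply Subtype.ext
  change v * x * v⁻¹ * x⁻¹ = 1
  rw [h.cen v hv x]
  group

theorem sq_sq (x : D) : h.sq x * h.sq x = 1 := h.vv _

theorem normal : V.Normal := ⟨fun v hv x => by rw [← h.cen v hv x]; simpa using hv⟩

/-- for an automorphism fixing `V` pointwise -/
theorem sq_map {φ : MulAut D} (hφ : ∀ v ∈ V, φ v = v) (x : D) : h.sq (φ x) = h.sq x := by
  apply Subtype.ext
  change (φ x) ^ 2 = x ^ 2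
  rw [← map_pow, hφ _ (h.sqm x)]

theorem B_map {φ : MulAut D} (hφ : ∀ v ∈ V, φ v = v) (x y : D) : h.B (φ x) (φ y) = h.B x y := by
  apply Subtype.ext
  change φ x * φ y * (φ x)⁻¹ * (φ y)⁻¹ = x * y * x⁻¹ * y⁻¹
  rw [← map_inv, ← map_inv, ← map_mul, ← map_mul, ← map_mul, hφ _ (h.com x y)]

/-- `Q(c) = B(c, x)` for `c = x⁻¹ φ(x)` -/
theorem sq_comm {φ : MulAut D} (hφ : ∀ v ∈ V, φ v = v) (x : D) :
    h.sq (x⁻¹ * φ x) = h.B (x⁻¹ * φ x) x := by
  have h1 : h.sq (x * (x⁻¹ * φ x)) = h.sq x := by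
    rw [mul_inv_cancel_left]
    exact h.sq_map hφ x
  rw [h.sq_mul, mul_assoc] at h1
  have h2 : h.sq (x⁻¹ * φ x) * h.B x (x⁻¹ * φ x) = 1 := by
    exact mul_left_cancel (h1.trans (mul_one _).symm)
  rw [h.B_symm] at h2
  rw [← h.vinv (h.B _ _), ← mul_eq_one_iff_eq_inv.1 h2]

end Cx

end H87.OS
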