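import Mathlib
import Cfsg.Agent.Lib.H87.OS1

set_option autoImplicit false

/-! Gauss sums of the anisotropic quadratic map. -/

open Subgroup

namespace H87.OS

universe u

namespace Cx

variable {D : Type u} [Group D] [Finite D] {V : Subgroup D} (h : Cx V)

/-- radical of `χ ∘ B` -/
def Rad (χ : V →* ℂ) : Subgroup D where
  carrier := {d | ∀ x, χ (h.B x d) = 1}
  one_mem' := fun x => by
    have : h.B x 1 = 1 := by
      rw [h.B_symm]; exact h.B_of_mem V.one_mem x
    rw [this, map_one]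
  mul_mem' := fun {a b} ha hb x => by
    rw [h.B_mul_right, map_mul, ha x, hb x, one_mul]
  inv_mem' := fun {a} ha x => by
    have h1 : h.B x (a * a⁻¹) = h.B x a * h.B x a⁻¹ := h.B_mul_right x a a⁻¹
    rw [mul_inv_cancel] at h1
    have h2 : h.B x 1 = 1 := by
      rw [h.B_symm]; exact h.B_of_mem V.one_mem x
    rw [h2] at h1
    have h3 := congrArg χ h1
    rw [map_one, map_mul, ha x, one_mul] at h3
    exact h3.symm

theorem mem_Rad {χ : V →* ℂ} {d : D} : d ∈ h.Rad χ ↔ ∀ x, χ (h.B x d) = 1 := Iff.rfl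

include h

theorem V_le_Rad (χ : V →* ℂ) : V ≤ h.Rad χ := by
  intro v hv x
  rw [h.B_symm, h.B_of_mem hv, map_one]

theorem sum_B (χ : V →* ℂ) (d : D) [Fintype D] [Decidable (d ∈ h.Rad χ)] :
    ∑ x : D, χ (h.B x d) = if d ∈ h.Rad χ then (Nat.card D : ℂ) else 0 := by
  let f : D →* ℂ :=
    { toFun := fun x => χ (h.B x d)
      map_one' := by rw [h.B_of_mem V.one_mem, map_one]
      map_mul' := fun x y => by rw [h.B_mul_left, map_mul] }
  split_ifs with hd
  · have : ∀ x : D, χ (h.B x d) = 1 := hd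
    rw [Finset.sum_congr rfl (fun x _ => this x)]
    simp [Nat.card_eq_fintype_card]
  · apply sum_hom_units_eq_zero f
    intro hf
    apply hd
    intro x
    exact DFunLike.congr_fun hf x

theorem sum_sq_Rad (χ : V →* ℂ) [Fintype (h.Rad χ)] :
    ∑ d : h.Rad χ, χ (h.sq (d : D)) = (Nat.card (h.Rad χ) : ℂ) ∨ ∑ d : h.Rad χ, χ (h.sq (d : D)) = 0 := by
  let f : h.Rad χ →* ℂ :=
    { toFun := fun x => χ (h.sq (x : D))
      map_one' := by
        have : h.sq ((1 : h.Rad χ) : D) = 1 := (h.mem_iff_sq _).1 V.one_mem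
        rw [this, map_one]
      map_mul' := fun x y => by
        have : h.sq ((x * y : h.Rad χ) : D) = h.sq x * h.sq y * h.B x y := h.sq_mul x y
        rw [this, map_mul, map_mul, y.2 x, mul_one] }
  by_cases hf : f = 1
  · left
    have : ∀ x : h.Rad χ, χ (h.sq (x : D)) = 1 := fun x => DFunLike.congr_fun hf x
    rw [Finset.sum_congr rfl (fun x _ => this x)]
    simp [Nat.card_eq_fintype_card]
  · right
    exact sum_hom_units_eq_zero f hf

theorem chi_sq (χ : V →* ℂ) (v : V) : χ v * χ v = 1 := by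
  rw [← map_mul, h.vv, map_one]

theorem gauss (χ : V →* ℂ) [Fintype D] :
    (∑ x : D, χ (h.sq x)) ^ 2 = (Nat.card D : ℂ) * Nat.card (h.Rad χ) ∨ (∑ x : D, χ (h.sq x)) ^ 2 = 0 := by
  classical
  have h1 : (∑ x : D, χ (h.sq x)) ^ 2 = ∑ d : D, χ (h.sq d) * ∑ x : D, χ (h.B x d) := by
    rw [pow_two, Finset.sum_mul_sum]
    have h2 : ∀ x : D, ∑ y : D, χ (h.sq x) * χ (h.sq y) = ∑ d : D, χ (h.sq d) * χ (h.B x d) := by
      intro x
      rw [← Equiv.sum_comp (Equiv.mulLeft x)]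
      apply Finset.sum_congr rfl
      intro d _
      rw [Equiv.coe_mulLeft, h.sq_mul, map_mul, map_mul]
      have := h.chi_sq χ (h.sq x)
      calc χ (h.sq x) * (χ (h.sq x) * χ (h.sq d) * χ (h.B x d)) =
          (χ (h.sq x) * χ (h.sq x)) * (χ (h.sq d) * χ (h.B x d)) := by ring
        _ = _ := by rw [this, one_mul]
    rw [Finset.sum_congr rfl (fun x _ => h2 x), Finset.sum_comm]
    apply Finset.sum_congr rfl
    intro d _
    rw [Finset.mul_sum]
  have h3 : ∑ d : D, χ (h.sq d) * ∑ x : D, χ (h.B x d) = (Nat.card D : ℂ) * ∑ d : h.Rad χ, χ (h.sq (d : D)) := by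
    have h5 : ∀ d : D, χ (h.sq d) * ∑ x : D, χ (h.B x d) =
        if d ∈ h.Rad χ then (Nat.card D : ℂ) * χ (h.sq d) else 0 := by
      intro d
      rw [h.sum_B χ d]
      split_ifs
      · ring
      · ring
    rw [Finset.sum_congr rfl (fun d _ => h5 d), ← Finset.sum_filter, Finset.mul_sum]
    exact Finset.sum_subtype _ (fun x => by simp) _
  rw [h1, h3]
  rcases h.sum_sq_Rad χ with h4 | h4
  · left; rw [h4]
  · right; rw [h4, mul_zero]

/-- the sum by fibres -/
theorem sum_fib (χ : V →* ℂ) (hχ : χ ≠ 1) (k : ℕ)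
    (hk : ∀ v : V, v ≠ 1 → Nat.card {x : D // h.sq x = v} = k) [Fintype D] :
    ∑ x : D, χ (h.sq x) = (Nat.card V : ℂ) - k := by
  classical
  have := Fintype.ofFinite V
  have h1 : ∑ x : D, χ (h.sq x) = ∑ v : V, (Nat.card {x : D // h.sq x = v} : ℂ) * χ v := by
    rw [← Finset.sum_fiberwise_of_maps_to (g := fun x : D => h.sq x) (t := Finset.univ) (fun x _ => Finset.mem_univ _)]
    apply Finset.sum_congr rfl
    intro v _
    rw [Finset.sum_congr rfl (g := fun _ => χ v) (fun x hx => by rw [(Finset.mem_filter.1 hx).2])]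
    rw [Finset.sum_const, nsmul_eq_mul, Nat.card_eq_fintype_card, Fintype.card_subtype]
  have h2 : ∀ v : V, (Nat.card {x : D // h.sq x = v} : ℂ) * χ v =
      (k : ℂ) * χ v + if v = 1 then ((Nat.card V : ℂ) - k) else 0 := by
    intro v
    split_ifs with hv
    · subst hv
      rw [map_one]
      have : Nat.card {x : D // h.sq x = 1} = Nat.card V :=
        Nat.card_congr (Equiv.subtypeEquivRight fun x => (h.mem_iff_sq x).symm)
      rw [this]
      ring
    · rw [hk v hv, add_zero]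
  rw [h1, Finset.sum_congr rfl (fun v _ => h2 v), Finset.sum_add_distrib, ← Finset.mul_sum,
    sum_hom_units_eq_zero χ hχ, mul_zero, zero_add, Finset.sum_ite_eq']
  simp

theorem card_eq (k : ℕ) (hk : ∀ v : V, v ≠ 1 → Nat.card {x : D // h.sq x = v} = k) :
    Nat.card D + k = Nat.card V + k * Nat.card V := by
  classical
  have := Fintype.ofFinite V
  have := Fintype.ofFinite D
  have h1 : Nat.card D = ∑ v : V, Nat.card {x : D // h.sq x = v} := by
    rw [← Nat.card_sigma]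
    exact (Nat.card_congr (Equiv.sigmaFiberEquiv (fun x : D => h.sq x))).symm
  have h2 : ∀ v : V, Nat.card {x : D // h.sq x = v} + (if v = 1 then k else 0) = k + if v = 1 then Nat.card V else 0 := by
    intro v
    split_ifs with hv
    · subst hv
      have : Nat.card {x : D // h.sq x = 1} = Nat.card V :=
        Nat.card_congr (Equiv.subtypeEquivRight fun x => (h.mem_iff_sq x).symm)
      rw [this, add_comm]
    · rw [hk v hv]
  have h3 : ∑ v : V, (Nat.card {x : D // h.sq x = v} + (if v = 1 then k else 0)) =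
      ∑ v : V, (k + if v = 1 then Nat.card V else 0) := Finset.sum_congr rfl (fun v _ => h2 v)
  rw [Finset.sum_add_distrib, Finset.sum_add_distrib, ← h1, Finset.sum_ite_eq', Finset.sum_ite_eq', Finset.sum_const] at h3
  simp only [Finset.mem_univ, if_true, Finset.card_univ, smul_eq_mul] at h3
  rw [Nat.card_eq_fintype_card (α := V)] at h3 ⊢
  rw [h3]
  ring

end Cx

/-- arithmetic -/
theorem arith {n d r k : ℕ} (hn : 1 ≤ n) (hnd : n < d) (h1 : 2 ^ d + k = 2 ^ n + k * 2 ^ n)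
    (h2 : ((2 : ℤ) ^ n - k) ^ 2 = 2 ^ d * 2 ^ r) : d = 3 * n ∧ r = n := by
  have h3 : (((2 : ℤ) ^ n - k).natAbs) ^ 2 = 2 ^ (d + r) := by
    have : ((((2 : ℤ) ^ n - k).natAbs ^ 2 : ℕ) : ℤ) = ((2 ^ (d + r) : ℕ) : ℤ) := by
      push_cast
      rw [sq_abs, h2, pow_add]
    exact_mod_cast this
  obtain ⟨a, -, ha⟩ := (Nat.dvd_prime_pow Nat.prime_two).1 (Dvd.intro_left (((2 : ℤ) ^ n - k).natAbs) (by rw [← pow_two]; exact h3))
  rw [ha, ← pow_mul] at h3
  have h4 : a * 2 = d + r := Nat.pow_right_injective (le_refl 2) h3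
  have h5 : ((2 : ℤ) ^ n - k) = 2 ^ a ∨ ((2 : ℤ) ^ n - k) = - 2 ^ a := by
    have := Int.natAbs_eq ((2 : ℤ) ^ n - k)
    rw [ha] at this
    push_cast at this
    exact this
  have hodd : Nat.Coprime (2 ^ n) (2 ^ n - 1) := by
    have h6 : 1 ≤ 2 ^ n := Nat.one_le_two_pow
    have : (2 ^ n - 1).Coprime (2 ^ n) := by
      rw [Nat.coprime_self_sub_left h6]
      exact Nat.coprime_one_left _
    exact this.symm
  -- 2^n ∣ k
  have h7 : 2 ^ n ∣ k := by
    apply hodd.dvd_of_dvd_mul_right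
    have h8 : k * (2 ^ n - 1) = 2 ^ d - 2 ^ n := by
      have h6 : 1 ≤ 2 ^ n := Nat.one_le_two_pow
      have h9 : 2 ^ n ≤ 2 ^ d := Nat.pow_le_pow_right (by norm_num) hnd.le
      zify [h6, h9]
      zify at h1
      linarith
    rw [h8]
    exact Nat.dvd_sub (pow_dvd_pow 2 hnd.le) dvd_rfl
  have hkpos : 0 < k := by
    rcases Nat.eq_zero_or_pos k with h0 | h0
    · exfalso
      rw [h0] at h1
      have : 2 ^ d = 2 ^ n := by linarith
      exact hnd.ne' (Nat.pow_right_injective (le_refl 2) this)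
    · exact h0
  have hkge : 2 ^ n ≤ k := Nat.le_of_dvd hkpos h7
  have hkZ : ((2 : ℤ) ^ n) ≤ k := by exact_mod_cast hkge
  have h2a : (0 : ℤ) < 2 ^ a := by positivity
  have hk : (k : ℤ) = 2 ^ n + 2 ^ a := by
    rcases h5 with h5 | h5 <;> linarith
  have hkN : k = 2 ^ n + 2 ^ a := by exact_mod_cast hk
  have h8 : 2 ^ (2 * n) + 2 ^ a * (2 ^ n - 1) = 2 ^ d := by
    have h6 : 1 ≤ 2 ^ n := Nat.one_le_two_pow
    rw [hkN] at h1
    zify [h6]
    zify at h1
    rw [two_mul, pow_add]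
    linarith
  have h6 : 2 ≤ 2 ^ n := by
    calc 2 = 2 ^ 1 := rfl
      _ ≤ _ := Nat.pow_le_pow_right (by norm_num) hn
  have hev : Even (2 ^ n) := (Nat.even_pow.2 ⟨even_two, by omega⟩)
  rcases lt_trichotomy a (2 * n) with hlt | heq | hgt
  · exfalso
    obtain ⟨c, hc⟩ := Nat.exists_eq_add_of_lt hlt
    have hc' : 2 * n = a + (c + 1) := by omega
    rw [hc', pow_add 2 a (c + 1)] at h8
    have had : a ≤ d := by
      by_contra hcon
      have h9 : 2 ^ d < 2 ^ a := Nat.pow_lt_pow_right (by norm_num) (by omega)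
      have h10 : 1 ≤ 2 ^ (c + 1) := Nat.one_le_two_pow
      nlinarith
    obtain ⟨e, rfl⟩ := Nat.exists_eq_add_of_le had
    rw [pow_add 2 a e, ← mul_add] at h8
    have h9 := Nat.eq_of_mul_eq_mul_left (by positivity) h8
    have h10 : Even (2 ^ (c + 1)) := Nat.even_pow.2 ⟨even_two, by omega⟩
    have h11 : 2 ≤ 2 ^ (c + 1) := by
      calc 2 = 2 ^ 1 := rfl
        _ ≤ _ := Nat.pow_le_pow_right (by norm_num) (by omega)
    rcases Nat.eq_zero_or_pos e with he | he
    · rw [he, pow_zero] at h9; omega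
    · have h12 : Even (2 ^ e) := Nat.even_pow.2 ⟨even_two, by omega⟩
      obtain ⟨x1, hx1⟩ := hev
      obtain ⟨x2, hx2⟩ := h10
      obtain ⟨x3, hx3⟩ := h12
      omega
  · rw [heq] at h8
    have h9 : 2 ^ (2 * n) + 2 ^ (2 * n) * (2 ^ n - 1) = 2 ^ (3 * n) := by
      have : 3 * n = 2 * n + n := by ring
      rw [this, pow_add]
      calc 2 ^ (2 * n) + 2 ^ (2 * n) * (2 ^ n - 1) = 2 ^ (2 * n) * (1 + (2 ^ n - 1)) := by ring
        _ = _ := by rw [show 1 + (2 ^ n - 1) = 2 ^ n by omega]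
    rw [h9] at h8
    have h10 : 3 * n = d := Nat.pow_right_injective (le_refl 2) h8
    exact ⟨h10.symm, by omega⟩
  · exfalso
    obtain ⟨c, hc⟩ := Nat.exists_eq_add_of_lt hgt
    rw [hc] at h8
    have h10 : 2 * n ≤ d := by
      by_contra hcon
      have h9 : 2 ^ d < 2 ^ (2 * n) := Nat.pow_lt_pow_right (by norm_num) (by omega)
      omega
    obtain ⟨e, rfl⟩ := Nat.exists_eq_add_of_le h10
    rw [pow_add 2 (2 * n) e, show 2 * n + c + 1 = 2 * n + (c + 1) by ring, pow_add 2 (2 * n) (c + 1), mul_assoc,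
      show 2 ^ (2 * n) + 2 ^ (2 * n) * (2 ^ (c + 1) * (2 ^ n - 1)) = 2 ^ (2 * n) * (1 + 2 ^ (c + 1) * (2 ^ n - 1)) by ring] at h8
    have h9 := Nat.eq_of_mul_eq_mul_left (by positivity) h8
    have h11 : Even (2 ^ (c + 1)) := Nat.even_pow.2 ⟨even_two, by omega⟩
    have h12 : Even (2 ^ (c + 1) * (2 ^ n - 1)) := h11.mul_right _
    have h13 : 0 < 2 ^ (c + 1) * (2 ^ n - 1) := Nat.mul_pos (by positivity) (by omega)
    rcases Nat.eq_zero_or_pos e with he | he
    · rw [he, pow_zero] at h9; omega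
    · have h14 : Even (2 ^ e) := Nat.even_pow.2 ⟨even_two, by omega⟩
      obtain ⟨x2, hx2⟩ := h12
      obtain ⟨x3, hx3⟩ := h14
      omega

namespace Cx

variable {D : Type u} [Group D] [Finite D] {V : Subgroup D} (h : Cx V)

include h

/-- dichotomy -/
theorem dich (hD : IsPGroup 2 D) (hV1 : V ≠ ⊥) (hVT : V ≠ ⊤) (k : ℕ)
    (hk : ∀ v : V, v ≠ 1 → Nat.card {x : D // h.sq x = v} = k) (hkV : k ≠ Nat.card V) (χ : V →* ℂ) (hχ : χ ≠ 1) :
    Nat.card D = Nat.card V ^ 3 ∧ h.Rad χ = V := by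
  classical
  have := Fintype.ofFinite D
  obtain ⟨d, hd⟩ := IsPGroup.iff_card.1 hD
  obtain ⟨n, hn⟩ := IsPGroup.iff_card.1 (hD.to_subgroup V)
  obtain ⟨r, hr⟩ := IsPGroup.iff_card.1 (hD.to_subgroup (h.Rad χ))
  have h1 := h.card_eq k hk
  have h2 := h.sum_fib χ hχ k hk
  have h3 := h.gauss χ
  rw [h2] at h3
  have h4 : ((Nat.card V : ℂ) - k) ^ 2 ≠ 0 := by
    apply pow_ne_zero
    rw [sub_ne_zero]
    intro hc
    exact hkV (by exact_mod_cast hc.symm)
  have h5 := h3.resolve_right h4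
  rw [hd, hn, hr] at h5
  have h6 : ((2 : ℤ) ^ n - k) ^ 2 = 2 ^ d * 2 ^ r := by
    have : (((((2 : ℤ) ^ n - k) ^ 2 : ℤ)) : ℂ) = (((2 : ℤ) ^ d * 2 ^ r : ℤ) : ℂ) := by
      push_cast
      push_cast at h5
      exact h5
    exact_mod_cast this
  have hn1 : 1 ≤ n := by
    rcases Nat.eq_zero_or_pos n with h0 | h0
    · exfalso
      rw [h0, pow_zero] at hn
      exact hV1 (Subgroup.card_eq_one.1 hn)
    · exact h0
  have hnd : n < d := by
    have h7 : Nat.card V < Nat.card D := by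
      rcases lt_or_eq_of_le (Subgroup.card_le_card_group V) with h8 | h8
      · exact h8
      · exact absurd (Subgroup.eq_top_of_card_eq V h8) hVT
    rw [hd, hn] at h7
    exact (Nat.pow_lt_pow_iff_right (by norm_num)).1 h7
  rw [hd, hn] at h1
  obtain ⟨h7, h8⟩ := arith hn1 hnd h1 h6
  constructor
  · rw [hd, hn, h7, ← pow_mul, mul_comm]
  · symm
    apply Subgroup.eq_of_le_of_card_ge (h.V_le_Rad χ)
    rw [hr, hn, h8]

end Cx

end H87.OS
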