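import Mathlib
import Cfsg.Agent.Lib.H87.OS2

set_option autoImplicit false

/-! Commuting automorphisms fixing `V`. -/

open Subgroup

namespace H87.OS

universe u

namespace Cx

variable {D : Type u} [Group D] [Finite D] {V : Subgroup D} (h : Cx V)

include h

theorem mk_comm [V.Normal] (a b : D) : (QuotientGroup.mk' V) a * (QuotientGroup.mk' V) b =
    (QuotientGroup.mk' V) b * (QuotientGroup.mk' V) a := by
  rw [← map_mul, ← map_mul, QuotientGroup.mk'_apply, QuotientGroup.mk'_apply, QuotientGroup.eq]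
  have := h.com b⁻¹ a⁻¹
  have h2 : (a * b)⁻¹ * (b * a) = b⁻¹ * a⁻¹ * b⁻¹⁻¹ * a⁻¹⁻¹ := by group
  rw [h2]
  exact this

theorem mk_sq [V.Normal] (a : D) : (QuotientGroup.mk' V) a * (QuotientGroup.mk' V) a = 1 := by
  rw [← map_mul, QuotientGroup.mk'_apply, QuotientGroup.eq_one_iff, ← pow_two]
  exact h.sqm a

theorem B_congr [V.Normal] {a b : D} (hab : (QuotientGroup.mk' V) a = (QuotientGroup.mk' V) b) (w : D) :
    h.B w a = h.B w b := by
  rw [QuotientGroup.mk'_apply, QuotientGroup.mk'_apply, QuotientGroup.eq] at hab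
  have h1 : b = a * (a⁻¹ * b) := by group
  have h2 : h.B w (a * (a⁻¹ * b)) = h.B w a := by
    rw [h.B_mul_right, h.B_symm w (a⁻¹ * b), h.B_of_mem hab, mul_one]
  rw [← h1] at h2
  exact h2.symm

theorem sq_congr [V.Normal] {a b : D} (hab : (QuotientGroup.mk' V) a = (QuotientGroup.mk' V) b) :
    h.sq a = h.sq b := by
  rw [QuotientGroup.mk'_apply, QuotientGroup.mk'_apply, QuotientGroup.eq] at hab
  have h1 : b = a * (a⁻¹ * b) := by group
  have h2 : h.sq (a * (a⁻¹ * b)) = h.sq a := by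
    rw [h.sq_mul, h.B_symm, h.B_of_mem hab, (h.mem_iff_sq _).1 hab, mul_one, mul_one]
  rw [← h1] at h2
  exact h2.symm

/-- the map `x ↦ x⁻¹ φ(x)` modulo `V` -/
def cb [V.Normal] (φ : MulAut D) : D →* D ⧸ V where
  toFun x := (QuotientGroup.mk' V) (x⁻¹ * φ x)
  map_one' := by rw [map_one, inv_one, mul_one, map_one]
  map_mul' x y := by
    have h1 : (x * y)⁻¹ * φ (x * y) = y⁻¹ * (x⁻¹ * φ x) * φ y := by rw [map_mul]; group
    rw [h1, map_mul, map_mul, h.mk_comm y⁻¹, mul_assoc, ← map_mul]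

theorem cb_apply [V.Normal] (φ : MulAut D) (x : D) : h.cb φ x = (QuotientGroup.mk' V) (x⁻¹ * φ x) := rfl

theorem cb_apply' [V.Normal] (φ : MulAut D) (x : D) :
    h.cb φ x = ((QuotientGroup.mk' V) x)⁻¹ * (QuotientGroup.mk' V) (φ x) := by
  rw [h.cb_apply, map_mul, map_inv]

theorem cb_eq_one [V.Normal] {φ : MulAut D} {x : D} : h.cb φ x = 1 ↔ x⁻¹ * φ x ∈ V := by
  rw [h.cb_apply, QuotientGroup.mk'_apply, QuotientGroup.eq_one_iff]

theorem cb_congr [V.Normal] {φ : MulAut D} (hφ : ∀ v ∈ V, φ v = v) {a b : D}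
    (hab : (QuotientGroup.mk' V) a = (QuotientGroup.mk' V) b) : h.cb φ a = h.cb φ b := by
  rw [QuotientGroup.mk'_apply, QuotientGroup.mk'_apply, QuotientGroup.eq] at hab
  have h1 : b = a * (a⁻¹ * b) := by group
  have h2 : h.cb φ (a * (a⁻¹ * b)) = h.cb φ a := by
    rw [map_mul]
    have : h.cb φ (a⁻¹ * b) = 1 := by
      rw [h.cb_eq_one, hφ _ hab, inv_mul_cancel]
      exact V.one_mem
    rw [this, mul_one]
  rw [← h1] at h2
  exact h2.symm

theorem map_congr [V.Normal] {φ : MulAut D} (hφ : ∀ v ∈ V, φ v = v) {a b : D}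
    (hab : (QuotientGroup.mk' V) a = (QuotientGroup.mk' V) b) :
    (QuotientGroup.mk' V) (φ a) = (QuotientGroup.mk' V) (φ b) := by
  rw [QuotientGroup.mk'_apply, QuotientGroup.mk'_apply, QuotientGroup.eq] at hab ⊢
  rw [← map_inv, ← map_mul, hφ _ hab]
  exact hab

theorem exists_chi {Y : Subgroup V} (hY : Y ≠ ⊤) : ∃ χ : V →* ℂ, χ ≠ 1 ∧ ∀ y ∈ Y, χ y = 1 := by
  let _ : CommGroup V := { (inferInstance : Group V) with mul_comm := h.vcomm }
  obtain ⟨a, ha⟩ : ∃ a : V, a ∉ Y := by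
    by_contra hcon
    push Not at hcon
    exact hY (Subgroup.eq_top_iff' Y |>.2 hcon)
  have h1 : ((a : V) : V ⧸ Y) ≠ 1 := by
    rw [Ne, QuotientGroup.eq_one_iff]; exact ha
  obtain ⟨φ, hφ⟩ := CommGroup.exists_apply_ne_one_of_hasEnoughRootsOfUnity (V ⧸ Y) ℂ h1
  refine ⟨(Units.coeHom ℂ).comp (φ.comp (QuotientGroup.mk' Y)), ?_, ?_⟩
  · intro hc
    apply hφ
    have := DFunLike.congr_fun hc a
    exact Units.ext this
  · intro y hy
    change ((φ (y : V ⧸ Y) : ℂˣ) : ℂ) = 1
    rw [(QuotientGroup.eq_one_iff y).2 hy, map_one]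
    rfl

/-- double counting -/
theorem card_perp (χ : V →* ℂ) (hR : h.Rad χ = V) (L P : Subgroup D) (hVL : V ≤ L)
    (hP : ∀ d, d ∈ P ↔ ∀ l ∈ L, χ (h.B d l) = 1) : Nat.card L * Nat.card P = Nat.card D * Nat.card V := by
  classical
  have := Fintype.ofFinite D
  have h1 : ∑ d : D, ∑ l : L, χ (h.B d l) = (Nat.card D : ℂ) * Nat.card V := by
    rw [Finset.sum_comm]
    have h2 : ∀ l : L, ∑ d : D, χ (h.B d l) = if (l : D) ∈ V then (Nat.card D : ℂ) else 0 := by
      intro l
      rw [h.sum_B χ (l : D)]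
      simp only [hR]
    rw [Finset.sum_congr rfl (fun l _ => h2 l), ← Finset.sum_filter, Finset.sum_const, nsmul_eq_mul, mul_comm]
    congr 2
    rw [← Fintype.card_subtype, ← Nat.card_eq_fintype_card]
    exact Nat.card_congr ((Equiv.subtypeSubtypeEquivSubtype (fun {x} hx => hVL hx)).trans (Equiv.refl _))
  have h3 : ∑ d : D, ∑ l : L, χ (h.B d l) = (Nat.card L : ℂ) * Nat.card P := by
    have h2 : ∀ d : D, ∑ l : L, χ (h.B d l) = if d ∈ P then (Nat.card L : ℂ) else 0 := by
      intro d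
      let f : L →* ℂ :=
        { toFun := fun l => χ (h.B d l)
          map_one' := by
            have : h.B d ((1 : L) : D) = 1 := by rw [h.B_symm]; exact h.B_of_mem V.one_mem d
            rw [this, map_one]
          map_mul' := fun x y => by
            have : h.B d ((x * y : L) : D) = h.B d x * h.B d y := h.B_mul_right d x y
            rw [this, map_mul] }
      split_ifs with hd
      · rw [Finset.sum_congr rfl (g := fun _ => (1 : ℂ)) (fun (l : L) _ => (hP d).1 hd (l : D) l.2)]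
        simp [Nat.card_eq_fintype_card]
      · apply sum_hom_units_eq_zero f
        intro hf
        apply hd
        rw [hP]
        intro l hl
        exact DFunLike.congr_fun hf ⟨l, hl⟩
    rw [Finset.sum_congr rfl (fun d _ => h2 d), ← Finset.sum_filter, Finset.sum_const, nsmul_eq_mul, mul_comm]
    congr 2
    rw [← Fintype.card_subtype, ← Nat.card_eq_fintype_card]
  rw [h1] at h3
  exact_mod_cast h3.symm

end Cx

end H87.OS
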