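import Mathlib
import Cfsg.Agent.Lib.H87.OS3

set_option autoImplicit false

/-! Commuting automorphisms fixing `V`: the centralizer of an involution has order two. -/

open Subgroup

namespace H87.OS

universe u

namespace Cx

variable {D : Type u} [Group D] [Finite D] {V : Subgroup D} (h : Cx V)

include h

theorem core (hcard : Nat.card D = Nat.card V ^ 3) (hR : ∀ χ : V →* ℂ, χ ≠ 1 → h.Rad χ = V)
    {z y : MulAut D} (hz : ∀ v ∈ V, z v = v) (hy : ∀ v ∈ V, y v = v)
    (hz2 : ∀ x, x⁻¹ * z (z x) ∈ V) (hz1 : ∃ x, x⁻¹ * z x ∉ V)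
    (hzy : ∀ x, (y (z x))⁻¹ * z (y x) ∈ V) :
    (∀ x, x⁻¹ * y x ∈ V) ∨ (∀ x, (z x)⁻¹ * y x ∈ V) := by
  classical
  have := h.normal
  have := Fintype.ofFinite D
  set π := QuotientGroup.mk' V with hπ
  have hq : 0 < Nat.card V := Nat.card_pos
  set K : Subgroup D := (h.cb z).ker with hK
  set L : Subgroup D := (h.cb z).range.comap π with hL
  have hVK : V ≤ K := by
    intro v hv
    rw [hK, MonoidHom.mem_ker, h.cb_eq_one, hz v hv, inv_mul_cancel]
    exact V.one_mem
  have hVL : V ≤ L := by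
    intro v hv
    rw [hL, Subgroup.mem_comap]
    have : π v = 1 := (QuotientGroup.eq_one_iff v).2 hv
    rw [this]
    exact Subgroup.one_mem _
  have hLm : ∀ l ∈ L, ∃ x, π l = π (x⁻¹ * z x) := by
    intro l hl
    obtain ⟨x, hx⟩ := hl
    exact ⟨x, hx.symm⟩
  have hcL : ∀ x, x⁻¹ * z x ∈ L := fun x => ⟨x, rfl⟩
  have hKL : Nat.card K * Nat.card L = Nat.card D * Nat.card V := by
    have h1 : Nat.card L = Nat.card V * Nat.card (h.cb z).range := by
      have h2 : L.index = (h.cb z).range.index :=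
        Subgroup.index_comap_of_surjective _ (QuotientGroup.mk'_surjective V)
      have h4 := Subgroup.card_mul_index L
      have h5 := Subgroup.card_mul_index (h.cb z).range
      have h6 := Subgroup.card_mul_index V
      have h7 : Nat.card (D ⧸ V) = V.index := rfl
      have h8 : 0 < L.index := Nat.pos_of_ne_zero Subgroup.index_ne_zero_of_finite
      apply Nat.eq_of_mul_eq_mul_right h8
      rw [h4, mul_assoc, h2, h5, h7, h6]
    have h3 : Nat.card K * Nat.card (h.cb z).range = Nat.card D := by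
      rw [← Subgroup.index_ker]
      exact Subgroup.card_mul_index _
    rw [h1, ← h3]; ring
  -- B vanishes on K × L
  have hBKL : ∀ w ∈ K, ∀ l ∈ L, h.B w l = 1 := by
    intro w hw l hl
    obtain ⟨x, hx⟩ := hLm l hl
    rw [h.B_congr hx]
    have h1 : h.B w (x * (x⁻¹ * z x)) = h.B w x := by
      rw [mul_inv_cancel_left]
      have h2 : π w = π (z w) := by
        rw [hK, MonoidHom.mem_ker, h.cb_apply'] at hw
        exact inv_mul_eq_one.1 hw
      rw [← h.B_map hz w x, h.B_symm w, h.B_congr h2, h.B_symm]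
    rw [h.B_mul_right] at h1
    exact mul_left_cancel (h1.trans (mul_one _).symm)
  have hzc : ∀ x, h.cb z (x⁻¹ * z x) = 1 := by
    intro x
    rw [h.cb_apply', map_mul z, map_inv z, map_mul, map_mul, map_inv, map_inv]
    have h2 : π (z (z x)) = π x := by
      rw [hπ, QuotientGroup.mk'_apply, QuotientGroup.mk'_apply, eq_comm, QuotientGroup.eq]
      exact hz2 x
    rw [h2]
    have h3 := h.mk_sq ((z x)⁻¹ * x)
    rw [map_mul, map_inv] at h3
    rw [mul_inv_rev, inv_inv]
    exact h3
  have hLK : L ≤ K := by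
    intro l hl
    obtain ⟨x, hx⟩ := hLm l hl
    rw [hK, MonoidHom.mem_ker, h.cb_congr hz hx]
    exact hzc x
  -- |L| ≤ q²
  let s : L →* V :=
    { toFun := fun l => h.sq (l : D)
      map_one' := (h.mem_iff_sq _).1 V.one_mem
      map_mul' := fun a b => by
        have h1 : h.sq ((a * b : L) : D) = h.sq a * h.sq b * h.B a b := h.sq_mul a b
        rw [h1, hBKL a (hLK a.2) b b.2, mul_one] }
  have hsker : Nat.card s.ker = Nat.card V := by
    apply Nat.card_congr
    refine ⟨fun l => ⟨((l : L) : D), (h.mem_iff_sq _).2 l.2⟩, fun v => ⟨⟨v, hVL v.2⟩, (h.mem_iff_sq _).1 v.2⟩, ?_, ?_⟩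
    · intro l; rfl
    · intro v; rfl
  have hL2 : Nat.card L ≤ Nat.card V * Nat.card V := by
    rw [← s.ker.card_mul_index, hsker, Subgroup.index_ker]
    exact Nat.mul_le_mul_left _ (Nat.card_le_card_of_injective _ Subtype.val_injective)
  -- the maps B x
  let bx : D → (L →* V) := fun x =>
    { toFun := fun l => h.B x l
      map_one' := by
        have : h.B x ((1 : L) : D) = 1 := by rw [h.B_symm]; exact h.B_of_mem V.one_mem x
        exact this
      map_mul' := fun a b => h.B_mul_right x a b }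
  have hbx : ∀ x, ∀ l : L, bx x l = h.B x l := fun _ _ => rfl
  have hsurj : ∀ x, x ∉ K → (bx x).range = ⊤ := by
    intro x hx
    by_contra hne
    obtain ⟨χ, hχ, hχY⟩ := h.exists_chi hne
    let P : Subgroup D :=
      { carrier := {d | ∀ l ∈ L, χ (h.B d l) = 1}
        one_mem' := fun l _ => by rw [h.B_of_mem V.one_mem, map_one]
        mul_mem' := fun {a b} ha hb l hl => by rw [h.B_mul_left, map_mul, ha l hl, hb l hl, one_mul]
        inv_mem' := fun {a} ha l hl => by
          have h1 := h.B_mul_left a a⁻¹ l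
          rw [mul_inv_cancel, h.B_of_mem V.one_mem] at h1
          have h2 := congrArg χ h1
          rw [map_one, map_mul, ha l hl, one_mul] at h2
          exact h2.symm }
    have h1 := h.card_perp χ (hR χ hχ) L P hVL (fun d => Iff.rfl)
    have hKP : K ≤ P := by
      intro w hw l hl
      rw [hBKL w hw l hl, map_one]
    have h2 : Nat.card P = Nat.card K := by
      have h3 : Nat.card L * Nat.card P = Nat.card L * Nat.card K := by
        rw [h1, ← hKL, mul_comm]
      exact Nat.eq_of_mul_eq_mul_left Nat.card_pos h3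
    have h4 : K = P := Subgroup.eq_of_le_of_card_ge hKP (by rw [h2])
    apply hx
    rw [h4]
    intro l hl
    exact hχY _ ⟨⟨l, hl⟩, rfl⟩
  obtain ⟨x0, hx0⟩ := hz1
  have hx0K : x0 ∉ K := by
    rw [hK, MonoidHom.mem_ker, h.cb_eq_one]; exact hx0
  have hVker : ∀ x, Nat.card V ≤ Nat.card (bx x).ker := by
    intro x
    refine Nat.card_le_card_of_injective (fun v : V => (⟨⟨v, hVL v.2⟩, ?_⟩ : (bx x).ker)) ?_
    · rw [MonoidHom.mem_ker, hbx, h.B_symm]
      exact h.B_of_mem v.2 x
    · intro v w hvw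
      exact Subtype.ext (congrArg (fun t : (bx x).ker => ((t : L) : D)) hvw)
  have hrange : ∀ x, x ∉ K → Nat.card L = Nat.card (bx x).ker * Nat.card V := by
    intro x hx
    rw [← (bx x).ker.card_mul_index, Subgroup.index_ker, hsurj x hx, Subgroup.card_top]
  have hLq : Nat.card L = Nat.card V * Nat.card V := by
    apply le_antisymm hL2
    rw [hrange x0 hx0K]
    exact Nat.mul_le_mul_right _ (hVker x0)
  have hkerV : ∀ x, x ∉ K → ∀ l ∈ L, h.B x l = 1 → l ∈ V := by
    intro x hx l hl hB
    have h1 := hrange x hx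
    rw [hLq] at h1
    have h2 : Nat.card (bx x).ker = Nat.card V := (Nat.eq_of_mul_eq_mul_right hq h1).symm
    have h3 : V.subgroupOf L = (bx x).ker := by
      apply Subgroup.eq_of_le_of_card_ge
      · intro v hv
        rw [MonoidHom.mem_ker, hbx, h.B_symm]
        exact h.B_of_mem hv x
      · rw [h2]
        exact (Nat.card_congr (Subgroup.subgroupOfEquivOfLe hVL).toEquiv).symm.le
    have h4 : (⟨l, hl⟩ : L) ∈ (bx x).ker := hB
    rw [← h3] at h4
    exact h4
  have hKeqL : K = L := by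
    symm
    apply Subgroup.eq_of_le_of_card_ge hLK
    have h1 : Nat.card K * (Nat.card V * Nat.card V) = (Nat.card V * Nat.card V) * (Nat.card V * Nat.card V) := by
      rw [← hLq, hKL, hcard, hLq]; ring
    have h2 : Nat.card K = Nat.card V * Nat.card V := Nat.eq_of_mul_eq_mul_right (Nat.mul_pos hq hq) h1
    rw [h2, hLq]
  -- y
  have hyc : ∀ x, π (y (x⁻¹ * z x)) = h.cb z (y x) := by
    intro x
    rw [h.cb_apply', map_mul y, map_inv y, map_mul, map_inv]
    congr 1
    rw [hπ, QuotientGroup.mk'_apply, QuotientGroup.mk'_apply, QuotientGroup.eq]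
    exact hzy x
  have hyL : ∀ l ∈ L, y l ∈ L := by
    intro l hl
    obtain ⟨x, hx⟩ := hLm l hl
    rw [hL, Subgroup.mem_comap, h.map_congr hy hx, hyc]
    exact ⟨_, rfl⟩
  have hyLV : ∀ l ∈ L, π (y l) = π l := by
    intro l hl
    rw [hπ, QuotientGroup.mk'_apply, QuotientGroup.mk'_apply, eq_comm, QuotientGroup.eq]
    rw [h.mem_iff_sq]
    have h1 := s.map_mul ⟨l⁻¹, L.inv_mem hl⟩ ⟨y l, hyL l hl⟩
    have h2 : h.sq (l⁻¹ * y l) = h.sq l⁻¹ * h.sq (y l) := h1
    rw [h2, h.sq_map hy]
    have h3 := s.map_mul ⟨l⁻¹, L.inv_mem hl⟩ ⟨l, hl⟩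
    have h4 : h.sq (l⁻¹ * l) = h.sq l⁻¹ * h.sq l := h3
    rw [← h4, inv_mul_cancel]
    exact (h.mem_iff_sq _).1 V.one_mem
  have hyD : ∀ x, x⁻¹ * y x ∈ L := by
    intro x
    rw [← hKeqL, hK, MonoidHom.mem_ker, map_mul, map_inv, ← hyc, hyLV _ (hcL x), inv_mul_eq_one]
    rfl
  have key : ∀ x, h.cb y x = 1 ∨ h.cb y x = h.cb z x := by
    intro x
    by_cases hl : x⁻¹ * y x ∈ V
    · left
      exact (h.cb_eq_one).2 hl
    · right
      set l := x⁻¹ * y x with hldef
      have hlL : l ∈ L := hyD x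
      obtain ⟨x', hx'⟩ := hLm l hlL
      have h1 : h.B l x = h.sq l := (h.sq_comm hy x).symm
      have h2 : h.B l x' = h.sq l := by
        rw [h.B_symm, h.B_congr hx', h.B_symm, ← h.sq_comm hz x', h.sq_congr hx']
      have h3 : h.B l (x⁻¹ * x') = 1 := by
        have h4 : h.B l (x * (x⁻¹ * x')) = h.B l x' := by rw [mul_inv_cancel_left]
        rw [h.B_mul_right, h1, h2] at h4
        exact mul_left_cancel (h4.trans (mul_one _).symm)
      have h5 : x⁻¹ * x' ∈ K := by
        by_contra hcon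
        exact hl (hkerV _ hcon l hlL (by rw [h.B_symm]; exact h3))
      rw [hK, MonoidHom.mem_ker, map_mul, map_inv, inv_mul_eq_one] at h5
      rw [h5, h.cb_apply z x', ← hπ, ← hx']
      rfl
  have hfin : (∀ x, h.cb y x = 1) ∨ (∀ x, h.cb y x = h.cb z x) := by
    by_contra hcon
    push Not at hcon
    obtain ⟨⟨a, ha⟩, ⟨b, hb⟩⟩ := hcon
    have ha' := (key a).resolve_left ha
    have hb' := (key b).resolve_right hb
    rcases key (a * b) with h1 | h1
    · rw [map_mul, hb', mul_one] at h1
      exact ha h1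
    · rw [map_mul, map_mul, ha'] at h1
      exact hb (mul_left_cancel h1)
  rcases hfin with h1 | h1
  · left
    intro x
    exact (h.cb_eq_one).1 (h1 x)
  · right
    intro x
    have h2 := h1 x
    rw [h.cb_apply', h.cb_apply'] at h2
    have h3 := mul_left_cancel h2
    rw [QuotientGroup.mk'_apply, QuotientGroup.mk'_apply, eq_comm, QuotientGroup.eq] at h3
    exact h3

end Cx

end H87.OS
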