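import Mathlib
import Cfsg.Agent.Lib.H87.OS4

set_option autoImplicit false

/-! Perfect groups of automorphisms: generalities and the case of central `V`. -/

open Subgroup

namespace H87.OS

universe u

theorem eq_bot_of_perfect {G : Type*} [Group G] {M : Subgroup G} (hs : Group.IsSolvable M) (hp : ⁅M, M⁆ = M) : M = ⊥ := by
  by_contra hne
  have : Nontrivial M := (Subgroup.nontrivial_iff_ne_bot M).mpr hne
  have h1 := Group.IsSolvable.commutator_lt_top_of_nontrivial (G := M)
  apply h1.ne
  apply Subgroup.map_injective M.subtype_injective
  rw [_root_.commutator_def, Subgroup.map_commutator, ← MonoidHom.range_eq_map, Subgroup.range_subtype, hp]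

theorem commutator_top {X : Type*} [Group X] {E : Subgroup X} (hE : ⁅E, E⁆ = E) : commutator E = ⊤ := by
  apply Subgroup.map_injective E.subtype_injective
  rw [_root_.commutator_def, Subgroup.map_commutator, ← MonoidHom.range_eq_map, Subgroup.range_subtype, hE]

theorem perfect_map {A B : Type*} [Group A] [Group B] {E : Subgroup A} (hE : ⁅E, E⁆ = E) (f : A →* B) :
    ⁅E.map f, E.map f⁆ = E.map f := by
  rw [← Subgroup.map_commutator, hE]

theorem hom_trivial {A B : Type*} [Group A] [Group B] (hA : commutator A = ⊤) (hB : Group.IsSolvable B)
    (f : A →* B) (a : A) : f a = 1 := by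
  have h1 : ⁅(⊤ : Subgroup A).map f, (⊤ : Subgroup A).map f⁆ = (⊤ : Subgroup A).map f := by
    apply perfect_map
    rw [← _root_.commutator_def]; exact hA
  have h2 := eq_bot_of_perfect (M := (⊤ : Subgroup A).map f) inferInstance h1
  have h3 : f a ∈ (⊤ : Subgroup A).map f := ⟨a, trivial, rfl⟩
  rw [h2] at h3
  exact h3

/-- if the displacement of `x` is fixed by a perfect group then `x` is fixed -/
theorem fix_of {X : Type*} [Group X] (hX : Group.IsSolvable X) {E : Subgroup (MulAut X)} (hE : ⁅E, E⁆ = E) {x : X}
    (h : ∀ φ ∈ E, ∀ ψ ∈ E, ψ (x⁻¹ * φ x) = x⁻¹ * φ x) : ∀ φ ∈ E, φ x = x := by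
  let f : E →* X :=
    { toFun := fun φ => x⁻¹ * (φ : MulAut X) x
      map_one' := by
        change x⁻¹ * (1 : MulAut X) x = 1
        rw [MulAut.one_apply, inv_mul_cancel]
      map_mul' := fun ψ φ => by
        change x⁻¹ * (ψ : MulAut X) ((φ : MulAut X) x) = (x⁻¹ * (ψ : MulAut X) x) * (x⁻¹ * (φ : MulAut X) x)
        have h1 := h φ φ.2 ψ ψ.2
        have h2 : (φ : MulAut X) x = x * (x⁻¹ * (φ : MulAut X) x) := by group
        rw [h2, map_mul, h1]
        group }
  intro φ hφ
  have h1 := hom_trivial (commutator_top hE) hX f ⟨φ, hφ⟩
  have h2 : x⁻¹ * φ x = 1 := h1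
  exact (inv_mul_eq_one.1 h2).symm

/-- a group with a Sylow 2-subgroup of order at most two is solvable -/
theorem solv_sylow_two (hFT : ∀ (H : Type u) [Group H] [Finite H], Odd (Nat.card H) → Group.IsSolvable H)
    {H : Type u} [Group H] [Finite H] (P : Sylow 2 H) (hP : Nat.card P ≤ 2) : Group.IsSolvable H := by
  have : Fact (Nat.Prime 2) := ⟨Nat.prime_two⟩
  have hNC : normalizer ((P : Subgroup H) : Set H) ≤ centralizer ((P : Subgroup H) : Set H) := by
    intro n hn
    rw [Subgroup.mem_centralizer_iff]
    intro p hp
    by_cases hp1 : p = 1
    · rw [hp1, one_mul, mul_one]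
    · have h1 : n * p * n⁻¹ ∈ (P : Subgroup H) := (Subgroup.mem_normalizer_iff.1 hn p).1 hp
      have h2 : n * p * n⁻¹ ≠ 1 := by
        intro h3
        apply hp1
        have : p = n⁻¹ * (n * p * n⁻¹) * n := by group
        rw [this, h3]; group
      have h3 : n * p * n⁻¹ = p := by
        by_contra hne
        have h4 : 3 ≤ Nat.card P := by
          have : Function.Injective (![⟨1, (P : Subgroup H).one_mem⟩, ⟨p, hp⟩, ⟨n * p * n⁻¹, h1⟩] : Fin 3 → (P : Subgroup H)) := by
            intro i j hij
            fin_cases i <;> fin_cases j <;>
              first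
                | rfl
                | (exfalso
                   have h5 := congrArg Subtype.val hij
                   simp at h5
                   first
                     | exact hp1 h5
                     | exact hp1 h5.symm
                     | exact h2 h5
                     | exact h2 h5.symm
                     | exact hne h5
                     | exact hne h5.symm)
          have h6 := Nat.card_le_card_of_injective _ this
          simpa using h6
        omega
      have h4 : n * p = p * n := by
        calc n * p = n * p * n⁻¹ * n := by group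
          _ = _ := by rw [h3]
      exact h4.symm
  have hc := MonoidHom.ker_transferSylow_isComplement' P hNC
  set K := (MonoidHom.transferSylow P hNC).ker with hK
  have hKo : Odd (Nat.card K) := by
    rw [← Nat.not_even_iff_odd, even_iff_two_dvd]
    intro h2
    have h3 := hc.card_mul
    have h4 : Nat.card K = (P : Subgroup H).index := by
      have h5 := Subgroup.card_mul_index (P : Subgroup H)
      have h6 : 0 < Nat.card (P : Subgroup H) := Nat.card_pos
      apply Nat.eq_of_mul_eq_mul_right h6
      rw [h3, mul_comm, h5]
    rw [h4] at h2
    exact P.not_dvd_index h2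
  have hKs : Group.IsSolvable K := hFT K hKo
  have hQs : Group.IsSolvable (H ⧸ K) := by
    have h1 : Nat.card (H ⧸ K) ≤ 2 := by
      have h2 : Nat.card (H ⧸ K) = Nat.card P := hc.symm.index_eq_card
      omega
    apply Group.isSolvable_of_comm
    intro a b
    by_contra hne
    have h3 : 3 ≤ Nat.card (H ⧸ K) := by
      have ha1 : a ≠ 1 := by rintro rfl; exact hne (by rw [one_mul, mul_one])
      have hb1 : b ≠ 1 := by rintro rfl; exact hne (by rw [one_mul, mul_one])
      have hab : a ≠ b := by rintro rfl; exact hne rfl
      have : Function.Injective (![1, a, b] : Fin 3 → (H ⧸ K)) := by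
        intro i j hij
        fin_cases i <;> fin_cases j <;>
          first
            | rfl
            | (exfalso
               simp at hij
               first
                 | exact ha1 hij
                 | exact ha1 hij.symm
                 | exact hb1 hij
                 | exact hb1 hij.symm
                 | exact hab hij
                 | exact hab hij.symm)
      have h6 := Nat.card_le_card_of_injective _ this
      simpa using h6
    omega
  exact (Group.isSolvable_iff_subgroup_quotient K).2 ⟨hKs, hQs⟩

end H87.OS
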