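import Mathlib
import Cfsg.Agent.Lib.H87.OS5

set_option autoImplicit false

/-! Perfect groups of automorphisms: the central case. -/

open Subgroup

namespace H87.OS

universe u

theorem central_case (hFT : ∀ (H : Type u) [Group H] [Finite H], Odd (Nat.card H) → Group.IsSolvable H)
    {D : Type u} [Group D] [Finite D] (hD : IsPGroup 2 D) {V : Subgroup D} (h : Cx V)
    (htr : ∀ v ∈ V, ∀ w ∈ V, v ≠ 1 → w ≠ 1 → ∃ j : MulAut D, j v = w)
    {E : Subgroup (MulAut D)} (hE : ⁅E, E⁆ = E) (hfix : ∀ φ ∈ E, ∀ v ∈ V, φ v = v) : E = ⊥ := by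
  classical
  have : Fact (Nat.Prime 2) := ⟨Nat.prime_two⟩
  have hDs : Group.IsSolvable D := by have := hD.isNilpotent; infer_instance
  -- enough: displacements in V
  have hred : (∀ φ ∈ E, ∀ x, x⁻¹ * φ x ∈ V) → E = ⊥ := by
    intro h1
    rw [eq_bot_iff]
    intro φ hφ
    rw [Subgroup.mem_bot]
    ext x
    rw [MulAut.one_apply]
    exact fix_of hDs hE (fun φ hφ ψ hψ => hfix ψ hψ _ (h1 φ hφ x)) φ hφ
  by_cases hVT : V = ⊤
  · apply hred
    intro φ _ x
    rw [hVT]; trivial
  have hVB : V ≠ ⊥ := by
    intro h0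
    apply hVT
    rw [eq_top_iff]
    intro x _
    rw [h.mem_iff_sq]
    apply Subtype.ext
    have h1 := (h.sq x).2
    have h2 : ((h.sq x : V) : D) ∈ (⊥ : Subgroup D) := h0 ▸ h1
    exact h2
  obtain ⟨v0, hv0, hv01⟩ : ∃ v0 : D, ∃ _ : v0 ∈ V, v0 ≠ 1 := by
    by_contra hcon
    push Not at hcon
    apply hVB
    rw [eq_bot_iff]
    intro x hx
    exact Subgroup.mem_bot.2 (hcon x hx)
  set k := Nat.card {x : D // h.sq x = ⟨v0, hv0⟩} with hkdef
  have hk : ∀ v : V, v ≠ 1 → Nat.card {x : D // h.sq x = v} = k := by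
    intro v hv
    obtain ⟨j, hj⟩ := htr v0 hv0 v v.2 hv01 (fun hc => hv (Subtype.ext hc))
    rw [hkdef]
    symm
    apply Nat.card_congr
    refine ⟨fun x => ⟨j x, ?_⟩, fun x => ⟨j⁻¹ x, ?_⟩, ?_, ?_⟩
    · apply Subtype.ext
      have h1 : ((x : D)) ^ 2 = v0 := congrArg Subtype.val x.2
      change (j x) ^ 2 = v
      rw [← map_pow, h1, hj]
    · apply Subtype.ext
      have h1 : ((x : D)) ^ 2 = v := congrArg Subtype.val x.2
      change (j⁻¹ (x : D)) ^ 2 = v0
      rw [← map_pow, h1, ← hj, MulAut.inv_apply_self]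
    · intro x
      exact Subtype.ext (MulAut.inv_apply_self D j x)
    · intro x
      exact Subtype.ext (MulAut.apply_inv_self D j x)
  by_cases hkV : k = Nat.card V
  · apply hred
    intro φ hφ x
    by_cases hx : x ∈ V
    · rw [hfix φ hφ x hx, inv_mul_cancel]; exact V.one_mem
    have hx1 : h.sq x ≠ 1 := fun hc => hx ((h.mem_iff_sq x).2 hc)
    let f : V → {y : D // h.sq y = h.sq x} := fun v => ⟨x * v, by
      rw [h.sq_mul, h.B_symm, h.B_of_mem v.2, (h.mem_iff_sq _).1 v.2, mul_one, mul_one]⟩
    have hf : Function.Injective f := by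
      intro v w hvw
      have := congrArg Subtype.val hvw
      exact Subtype.ext (mul_left_cancel this)
    have hcard : Nat.card {y : D // h.sq y = h.sq x} = Nat.card V := by rw [hk _ hx1, hkV]
    have hsurj : Function.Surjective f := ((Nat.bijective_iff_injective_and_card f).2 ⟨hf, hcard.symm⟩).2
    obtain ⟨v, hv⟩ := hsurj ⟨φ x, h.sq_map (hfix φ hφ) x⟩
    have h1 : x * v = φ x := congrArg Subtype.val hv
    rw [← h1, inv_mul_cancel_left]
    exact v.2
  -- the main case
  have hR : ∀ χ : V →* ℂ, χ ≠ 1 → h.Rad χ = V := fun χ hχ => (h.dich hD hVB hVT k hk hkV χ hχ).2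
  have hcard : Nat.card D = Nat.card V ^ 3 := by
    obtain ⟨χ, hχ, -⟩ := h.exists_chi (Y := (⊥ : Subgroup V)) (by
      intro hc
      apply hVB
      rw [← Subgroup.card_eq_one]
      have h1 : Nat.card (⊥ : Subgroup V) = Nat.card (⊤ : Subgroup V) := by rw [hc]
      rw [Subgroup.card_bot, Subgroup.card_top] at h1
      exact h1.symm)
    exact (h.dich hD hVB hVT k hk hkV χ hχ).1
  let E1 : Subgroup E :=
    { carrier := {φ | ∀ x, x⁻¹ * (φ : MulAut D) x ∈ V}
      one_mem' := fun x => by
        change x⁻¹ * (1 : MulAut D) x ∈ V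
        rw [MulAut.one_apply, inv_mul_cancel]; exact V.one_mem
      mul_mem' := fun {a b} ha hb x => by
        change x⁻¹ * (a : MulAut D) ((b : MulAut D) x) ∈ V
        have h1 : x⁻¹ * (a : MulAut D) ((b : MulAut D) x) =
            (x⁻¹ * (b : MulAut D) x) * (((b : MulAut D) x)⁻¹ * (a : MulAut D) ((b : MulAut D) x)) := by group
        rw [h1]
        exact V.mul_mem (hb x) (ha _)
      inv_mem' := fun {a} ha x => by
        have h1 := ha ((a : MulAut D)⁻¹ x)
        rw [MulAut.apply_inv_self] at h1
        have h2 := V.inv_mem h1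
        rw [mul_inv_rev, inv_inv] at h2
        exact h2 }
  have hE1m : ∀ φ : E, φ ∈ E1 ↔ ∀ x, x⁻¹ * (φ : MulAut D) x ∈ V := fun φ => Iff.rfl
  have hE1n : E1.Normal := by
    refine ⟨fun a ha b => ?_⟩
    rw [hE1m] at ha ⊢
    intro x
    change x⁻¹ * (b : MulAut D) ((a : MulAut D) ((b : MulAut D)⁻¹ x)) ∈ V
    have h1 := ha ((b : MulAut D)⁻¹ x)
    have h2 := hfix b b.2 _ h1
    rw [map_mul, map_inv, MulAut.apply_inv_self] at h2
    rw [h2]
    exact h1
  have hPcard : ∀ P : Sylow 2 (E ⧸ E1), Nat.card P ≤ 2 := by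
    intro P
    by_cases hP1 : Nontrivial P
    · have hc := P.isPGroup'.center_nontrivial
      have hfin : Finite (center P) := inferInstance
      obtain ⟨n, hn⟩ := IsPGroup.iff_card.1 (P.isPGroup'.to_subgroup (center P))
      have hn0 : n ≠ 0 := by
        rintro rfl
        rw [pow_zero] at hn
        exact (Finite.one_lt_card_iff_nontrivial.2 hc).ne' hn
      obtain ⟨z, hz⟩ := exists_prime_orderOf_dvd_card' (G := center P) 2 (by rw [hn]; exact dvd_pow_self 2 hn0)
      -- all elements
      have hall : ∀ y : (P : Subgroup (E ⧸ E1)), y = 1 ∨ y = (z : (P : Subgroup (E ⧸ E1))) := by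
        intro y
        obtain ⟨z', hz'⟩ := QuotientGroup.mk_surjective (((z : P) : (E ⧸ E1)))
        obtain ⟨y', hy'⟩ := QuotientGroup.mk_surjective ((y : P) : (E ⧸ E1))
        have hzz : z' * z' ∈ E1 := by
          rw [← QuotientGroup.eq_one_iff, QuotientGroup.mk_mul, hz', ← pow_two]
          have h1 : z ^ 2 = 1 := by have := pow_orderOf_eq_one z; rwa [hz] at this
          have h2 := congrArg (fun t : center P => ((t : P) : (E ⧸ E1))) h1
          simpa using h2
        have hz1 : z' ∉ E1 := by
          rw [← QuotientGroup.eq_one_iff, hz']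
          intro h1
          have h2 : z = 1 := Subtype.ext (Subtype.ext h1)
          rw [h2, orderOf_one] at hz
          norm_num at hz
        have hcomm : (y' * z')⁻¹ * (z' * y') ∈ E1 := by
          rw [← QuotientGroup.eq, QuotientGroup.mk_mul, QuotientGroup.mk_mul, hz', hy']
          have h1 := (Subgroup.mem_center_iff.1 z.2) y
          exact congrArg Subtype.val h1
        have hz1' : ∃ x, x⁻¹ * (z' : MulAut D) x ∉ V := by
          rw [hE1m] at hz1
          push Not at hz1
          exact hz1
        have h5 := h.core hcard hR (z := (z' : MulAut D)) (y := (y' : MulAut D)) (hfix _ z'.2) (hfix _ y'.2) ((hE1m _).1 hzz)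
          hz1' (by
            intro x
            have h1 := (hE1m _).1 hcomm x
            have h2 := hfix _ (y' * z').2 _ h1
            have h3 : ((y' * z' : E) : MulAut D) (x⁻¹ * (((y' * z')⁻¹ * (z' * y') : E) : MulAut D) x) =
                ((y' : MulAut D) ((z' : MulAut D) x))⁻¹ * (z' : MulAut D) ((y' : MulAut D) x) := by
              rw [map_mul, map_inv]
              congr 1
              exact MulAut.apply_inv_self D ((y' * z' : E) : MulAut D) (((z' * y' : E) : MulAut D) x)
            rw [← h3, h2]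
            exact h1)
        rcases h5 with h5 | h5
        · left
          apply Subtype.ext
          rw [← hy']
          exact (QuotientGroup.eq_one_iff _).2 ((hE1m _).2 h5)
        · right
          apply Subtype.ext
          rw [← hy', ← hz', eq_comm, QuotientGroup.eq, hE1m]
          intro x
          change x⁻¹ * (z' : MulAut D)⁻¹ ((y' : MulAut D) x) ∈ V
          have h6 := h5 x
          have h7 := hfix _ (z'⁻¹).2 _ h6
          rw [Subgroup.coe_inv, map_mul, map_inv, MulAut.inv_apply_self] at h7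
          rw [h7]
          exact h6
      have h8 : Function.Injective (fun y : (P : Subgroup (E ⧸ E1)) => if y = 1 then (0 : Fin 2) else 1) := by
        intro a b hab
        dsimp only at hab
        split_ifs at hab with h1 h2 h2
        · rw [h1, h2]
        · exact absurd hab (by decide)
        · exact absurd hab (by decide)
        · exact ((hall a).resolve_left h1).trans ((hall b).resolve_left h2).symm
      have h9 := Nat.card_le_card_of_injective _ h8
      rw [Nat.card_eq_fintype_card (α := Fin 2), Fintype.card_fin] at h9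
      exact h9
    · rw [not_nontrivial_iff_subsingleton] at hP1
      have := Nat.card_unique (α := P)
      omega
  obtain ⟨P⟩ : Nonempty (Sylow 2 (E ⧸ E1)) := inferInstance
  have hsol := solv_sylow_two hFT P (hPcard P)
  apply hred
  intro φ hφ
  have h1 := hom_trivial (commutator_top hE) hsol (QuotientGroup.mk' E1) ⟨φ, hφ⟩
  exact (hE1m _).1 ((QuotientGroup.eq_one_iff _).1 h1)

end H87.OS
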