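import Mathlib
import Cfsg.Agent.Lib.H1.Frat
import Cfsg.Agent.Lib.H87.OS6

set_option autoImplicit false

/-! Perfect groups of automorphisms of a 2-group fixing the involutions, all central and conjugate. -/

open Subgroup

namespace H87.OS

universe u

/-- automorphisms stabilising `S` -/
def NA {G : Type*} [Group G] (S : Subgroup G) : Subgroup (MulAut G) where
  carrier := {φ | ∀ s, s ∈ S ↔ φ s ∈ S}
  one_mem' := fun s => Iff.rfl
  mul_mem' := fun {a b} ha hb s => by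
    rw [MulAut.mul_apply, ← ha, ← hb]
  inv_mem' := fun {a} ha s => by
    rw [ha (a⁻¹ s), MulAut.apply_inv_self]

theorem mem_NA {G : Type*} [Group G] {S : Subgroup G} {φ : MulAut G} : φ ∈ NA S ↔ ∀ s, s ∈ S ↔ φ s ∈ S := Iff.rfl

/-- restriction to `S` -/
def res {G : Type*} [Group G] (S : Subgroup G) : NA S →* MulAut S where
  toFun φ :=
    { toFun := fun s => ⟨(φ : MulAut G) s, (φ.2 s).1 s.2⟩
      invFun := fun s => ⟨((φ⁻¹ : NA S) : MulAut G) s, ((φ⁻¹).2 s).1 s.2⟩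
      left_inv := fun s => Subtype.ext (MulAut.inv_apply_self G (φ : MulAut G) s)
      right_inv := fun s => Subtype.ext (MulAut.apply_inv_self G (φ : MulAut G) s)
      map_mul' := fun s t => Subtype.ext (map_mul (φ : MulAut G) (s : G) t) }
  map_one' := by ext s; rfl
  map_mul' := fun φ ψ => by ext s; rfl

theorem res_apply {G : Type*} [Group G] (S : Subgroup G) (φ : NA S) (s : S) :
    (res S φ s : G) = (φ : MulAut G) s := rfl

theorem mem_NA_of {G : Type*} [Group G] {S : Subgroup G} {J : Subgroup (MulAut G)}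
    (hJ : ∀ j ∈ J, ∀ s ∈ S, j s ∈ S) : J ≤ NA S := by
  intro j hj s
  refine ⟨hJ j hj s, fun h => ?_⟩
  have := hJ _ (J.inv_mem hj) _ h
  rwa [MulAut.inv_apply_self] at this

theorem perfect_subgroupOf {X : Type*} [Group X] {E N : Subgroup X} (hEN : E ≤ N) (hE : ⁅E, E⁆ = E) :
    ⁅E.subgroupOf N, E.subgroupOf N⁆ = E.subgroupOf N := by
  apply Subgroup.map_injective N.subtype_injective
  rw [Subgroup.map_commutator, Subgroup.subgroupOf_map_subtype, inf_eq_left.2 hEN, hE]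

theorem lemB (hFT : ∀ (H : Type u) [Group H] [Finite H], Odd (Nat.card H) → Group.IsSolvable H)
    {T : Type u} [Group T] [Finite T] (hT : IsPGroup 2 T) {V : Subgroup T} (hV : ∀ x, x ∈ V ↔ x ^ 2 = 1)
    (hVc : ∀ v ∈ V, ∀ x : T, v * x = x * v) {E J : Subgroup (MulAut T)} (hE : ⁅E, E⁆ = E)
    (hfix : ∀ φ ∈ E, ∀ v ∈ V, φ v = v) (hJE : ∀ j ∈ J, ∀ φ ∈ E, j * φ * j⁻¹ ∈ E)
    (htr : ∀ v ∈ V, ∀ w ∈ V, v ≠ 1 → w ≠ 1 → ∃ j ∈ J, j v = w) : E = ⊥ := by
  classical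
  have : Fact (Nat.Prime 2) := ⟨Nat.prime_two⟩
  by_contra hne
  have hTs : Group.IsSolvable T := by have := hT.isNilpotent; infer_instance
  let S : Set (Subgroup T) := {W | (∀ φ ∈ E, ∀ x ∈ W, φ x ∈ W) ∧ (∀ j ∈ J, ∀ x ∈ W, j x ∈ W) ∧
    ∃ φ ∈ E, ∃ x ∈ W, φ x ≠ x}
  have hStop : (⊤ : Subgroup T) ∈ S := by
    refine ⟨fun _ _ _ _ => trivial, fun _ _ _ _ => trivial, ?_⟩
    by_contra hcon
    push Not at hcon
    apply hne
    rw [eq_bot_iff]
    intro φ hφ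
    rw [Subgroup.mem_bot]
    ext x
    exact hcon φ hφ x trivial
  obtain ⟨D, hD, hmin⟩ := (Set.toFinite S).exists_minimal ⟨⊤, hStop⟩
  obtain ⟨hDE, hDJ, hDn⟩ := hD
  -- displacement subgroup
  set W1 : Subgroup T := closure {c | ∃ φ ∈ E, ∃ x ∈ D, c = x⁻¹ * φ x} with hW1
  have hdm : ∀ φ ∈ E, ∀ x ∈ D, x⁻¹ * φ x ∈ W1 := fun φ hφ x hx => subset_closure ⟨φ, hφ, x, hx, rfl⟩
  have hW1D : W1 ≤ D := by
    rw [hW1, closure_le]
    rintro _ ⟨φ, hφ, x, hx, rfl⟩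
    exact D.mul_mem (D.inv_mem hx) (hDE φ hφ x hx)
  have hW1inv : ∀ ψ : MulAut T, (∀ φ ∈ E, ψ * φ * ψ⁻¹ ∈ E) → (∀ x ∈ D, ψ x ∈ D) → ∀ x ∈ W1, ψ x ∈ W1 := by
    intro ψ hψ hψD
    have : W1 ≤ W1.comap (ψ : T →* T) := by
      conv_lhs => rw [hW1]
      rw [closure_le]
      rintro _ ⟨φ, hφ, x, hx, rfl⟩
      change ψ (x⁻¹ * φ x) ∈ W1
      have h1 := hdm _ (hψ φ hφ) _ (hψD x hx)
      have h2 : (ψ x)⁻¹ * (ψ * φ * ψ⁻¹) (ψ x) = ψ (x⁻¹ * φ x) := by
        rw [MulAut.mul_apply, MulAut.mul_apply, MulAut.inv_apply_self, map_mul, map_inv]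
      rwa [h2] at h1
    exact this
  have hEE : ∀ ψ ∈ E, ∀ φ ∈ E, ψ * φ * ψ⁻¹ ∈ E := fun ψ hψ φ hφ => E.mul_mem (E.mul_mem hψ hφ) (E.inv_mem hψ)
  have hW1S : W1 ∈ S := by
    refine ⟨fun φ hφ => hW1inv φ (hEE φ hφ) (hDE φ hφ), fun j hj => hW1inv j (hJE j hj) (hDJ j hj), ?_⟩
    by_contra hcon
    push Not at hcon
    obtain ⟨φ, hφ, x, hx, hne⟩ := hDn
    apply hne
    exact fix_of hTs hE (fun φ hφ ψ hψ => hcon ψ hψ _ (hdm φ hφ x hx)) φ hφ
  have hDW : D = W1 := le_antisymm (hmin hW1S hW1D) hW1D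
  -- squares
  set Φ : Subgroup T := closure {y | ∃ x ∈ D, y = x ^ 2} with hΦ
  have hsm : ∀ x ∈ D, x ^ 2 ∈ Φ := fun x hx => subset_closure ⟨x, hx, rfl⟩
  have hΦD : Φ ≤ D := by
    rw [hΦ, closure_le]
    rintro _ ⟨x, hx, rfl⟩
    exact D.pow_mem hx 2
  have hΦinv : ∀ ψ : MulAut T, (∀ x ∈ D, ψ x ∈ D) → ∀ x ∈ Φ, ψ x ∈ Φ := by
    intro ψ hψD
    have : Φ ≤ Φ.comap (ψ : T →* T) := by
      conv_lhs => rw [hΦ]
      rw [closure_le]
      rintro _ ⟨x, hx, rfl⟩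
      change ψ (x ^ 2) ∈ Φ
      rw [map_pow]
      exact hsm _ (hψD x hx)
    exact this
  have hDnt : Nontrivial D := by
    obtain ⟨φ, hφ, x, hx, hne⟩ := hDn
    refine ⟨⟨⟨x, hx⟩, 1, fun hc => hne ?_⟩⟩
    have : x = 1 := congrArg Subtype.val hc
    rw [this, map_one]
  have hΦne : ¬ D ≤ Φ := by
    intro hle
    have hDp : IsPGroup 2 D := hT.to_subgroup D
    have h1 : Φ.subgroupOf D ≤ frattini D := by
      have h2 : Φ ≤ (frattini D).map D.subtype := by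
        rw [hΦ, closure_le]
        rintro _ ⟨x, hx, rfl⟩
        exact ⟨(⟨x, hx⟩ : D) ^ 2, H1.Frat.pow_mem_frattini hDp _, rfl⟩
      intro y hy
      obtain ⟨y', hy', hyy⟩ := h2 hy
      have : y' = y := Subtype.ext hyy
      rwa [← this]
    have h3 : frattini D = ⊤ := by
      rw [eq_top_iff]
      intro y _
      exact h1 (hle y.2)
    obtain h4 | ⟨M, hM, -⟩ := eq_top_or_exists_le_coatom (⊥ : Subgroup D)
    · exact bot_ne_top h4
    · have := frattini_le_coatom hM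
      rw [h3, top_le_iff] at this
      exact hM.1 this
  have hΦfix : ∀ φ ∈ E, ∀ x ∈ Φ, φ x = x := by
    by_contra hcon
    push Not at hcon
    exact hΦne (hmin ⟨fun φ hφ => hΦinv φ (hDE φ hφ), fun j hj => hΦinv j (hDJ j hj), hcon⟩ hΦD)
  have hcomΦ : ∀ x ∈ D, ∀ y ∈ D, x * y * x⁻¹ * y⁻¹ ∈ Φ := by
    intro x hx y hy
    have h1 : x * y * x⁻¹ * y⁻¹ = (x * y) ^ 2 * ((y⁻¹ * x⁻¹ * y) ^ 2 * (y⁻¹) ^ 2) := by
      simp only [pow_two]; group
    rw [h1]
    exact Φ.mul_mem (hsm _ (D.mul_mem hx hy)) (Φ.mul_mem (hsm _ (D.mul_mem (D.mul_mem (D.inv_mem hy) (D.inv_mem hx)) hy))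
      (hsm _ (D.inv_mem hy)))
  have hΦc : ∀ y ∈ Φ, ∀ x ∈ D, y * x = x * y := by
    intro y hy
    have h1 : W1 ≤ centralizer {y} := by
      rw [hW1, closure_le]
      rintro _ ⟨φ, hφ, x, hx, rfl⟩
      rw [SetLike.mem_coe, mem_centralizer_singleton_iff]
      have hk := hcomΦ y (hΦD hy) x hx
      have h2 : φ (y * x * y⁻¹) = y * φ x * y⁻¹ := by rw [map_mul, map_mul, map_inv, hΦfix φ hφ y hy]
      have h3 : y * x * y⁻¹ = (y * x * y⁻¹ * x⁻¹) * x := by group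
      rw [h3, map_mul, hΦfix φ hφ _ hk] at h2
      -- [y,x] φ x = y φ x y⁻¹
      have h4 : y * (x⁻¹ * φ x) * y⁻¹ = x⁻¹ * φ x := by
        calc y * (x⁻¹ * φ x) * y⁻¹ = (y * x * y⁻¹)⁻¹ * (y * φ x * y⁻¹) := by group
          _ = (y * x * y⁻¹)⁻¹ * (y * x * y⁻¹ * x⁻¹ * φ x) := by rw [h2]
          _ = _ := by group
      first
        | exact (mul_inv_eq_iff_eq_mul.1 h4)
        | exact (mul_inv_eq_iff_eq_mul.1 h4).symm
    intro x hx
    rw [hDW] at hx
    have h2 := h1 hx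
    rw [mem_centralizer_singleton_iff] at h2
    first
      | exact h2
      | exact h2.symm
  -- squares lie in V
  have hgen : ∀ φ ∈ E, ∀ x ∈ D, (x⁻¹ * φ x) ^ 2 ∈ V := by
    intro φ hφ x hx
    set c := x⁻¹ * φ x with hc
    have hcD : c ∈ D := hW1D (hdm φ hφ x hx)
    have h1 : φ (x ^ 2) = x ^ 2 := hΦfix φ hφ _ (hsm x hx)
    have h2 : φ x = x * c := by rw [hc]; group
    rw [map_pow, h2] at h1
    have h3 : c * x * c = x := by
      simp only [pow_two] at h1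
      have : x * (c * x * c) = x * x := by rw [← h1]; group
      exact mul_left_cancel this
    have h4 := hΦc _ (hsm c hcD) x hx
    rw [hV, ← pow_mul]
    -- c² x = x c²; x = c x c
    have h5 : c ^ 2 * x * c ^ 2 = x := by
      calc c ^ 2 * x * c ^ 2 = c * (c * x * c) * c := by simp only [pow_two]; group
        _ = x := by rw [h3, h3]
    have h6 : c ^ (2 * 2) * x = x := by
      calc c ^ (2 * 2) * x = c ^ 2 * (c ^ 2 * x) := by rw [pow_mul, pow_two (c ^ 2)]; group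
        _ = c ^ 2 * (x * c ^ 2) := by rw [h4]
        _ = c ^ 2 * x * c ^ 2 := by rw [mul_assoc]
        _ = x := h5
    exact mul_eq_right.1 h6
  have hsqV : ∀ x ∈ D, x ^ 2 ∈ V := by
    intro x hx
    rw [hDW] at hx
    have key : x ∈ D ∧ x ^ 2 ∈ V := by
      rw [hW1] at hx
      induction hx using closure_induction with
      | mem c hc =>
        obtain ⟨φ, hφ, x, hx, rfl⟩ := hc
        exact ⟨hW1D (hdm φ hφ x hx), hgen φ hφ x hx⟩
      | one => exact ⟨D.one_mem, by rw [one_pow]; exact V.one_mem⟩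
      | inv x _ hx =>
        refine ⟨D.inv_mem hx.1, ?_⟩
        rw [inv_pow]
        exact V.inv_mem hx.2
      | mul x y _ _ hx hy =>
        refine ⟨D.mul_mem hx.1 hy.1, ?_⟩
        set k := x⁻¹ * y * x * y⁻¹ with hk
        have hkΦ : k ∈ Φ := by
          have := hcomΦ _ (D.inv_mem hx.1) _ hy.1
          rwa [inv_inv] at this
        have h1 : (x * y) ^ 2 = x ^ 2 * k * y ^ 2 := by
          rw [hk]; simp only [pow_two]; group
        have h2 : k ^ 2 = 1 := by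
          have h3 : x⁻¹ * y * x = k * y := by rw [hk]; group
          have h4 : x⁻¹ * y ^ 2 * x = k ^ 2 * y ^ 2 := by
            have h5 := hΦc k hkΦ y hy.1
            calc x⁻¹ * y ^ 2 * x = (x⁻¹ * y * x) * (x⁻¹ * y * x) := by simp only [pow_two]; group
              _ = k * (y * k) * y := by rw [h3]; group
              _ = k * (k * y) * y := by rw [h5]
              _ = _ := by simp only [pow_two]; group
          rw [mul_assoc, hVc _ hy.2 x, inv_mul_cancel_left] at h4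
          exact (mul_eq_right.1 h4.symm)
        rw [h1]
        exact V.mul_mem (V.mul_mem hx.2 ((hV k).2 h2)) hy.2
    exact key.2
  -- V ≤ D
  have hVD : V ≤ D := by
    obtain ⟨φ, hφ, x, hx, hne⟩ := hDn
    have hxV : x ∉ V := fun hc => hne (hfix φ hφ x hc)
    have hx2 : x ^ 2 ≠ 1 := fun hc => hxV ((hV x).2 hc)
    intro w hw
    by_cases hw1 : w = 1
    · rw [hw1]; exact D.one_mem
    · obtain ⟨j, hj, hjw⟩ := htr _ (hsqV x hx) w hw hx2 hw1
      rw [← hjw]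
      exact hDJ j hj _ (D.pow_mem hx 2)
  -- restrict to D
  have hcx : Cx (V.subgroupOf D) := by
    refine ⟨fun x => ?_, fun v hv x => ?_, fun x => ?_⟩
    · rw [mem_subgroupOf, hV]
      constructor
      · intro h1; exact Subtype.ext h1
      · intro h1; exact congrArg Subtype.val h1
    · exact Subtype.ext (hVc v hv x)
    · rw [mem_subgroupOf]
      exact hsqV x x.2
  have hEN : E ≤ NA D := mem_NA_of hDE
  have hJN : J ≤ NA D := mem_NA_of hDJ
  have hE' : (E.subgroupOf (NA D)).map (res D) = ⊥ := by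
    apply central_case hFT (hT.to_subgroup D) hcx
    · intro v hv w hw hv1 hw1
      obtain ⟨j, hj, hjv⟩ := htr v hv w hw (fun hc => hv1 (Subtype.ext hc)) (fun hc => hw1 (Subtype.ext hc))
      exact ⟨res D ⟨j, hJN hj⟩, Subtype.ext hjv⟩
    · exact perfect_map (perfect_subgroupOf hEN hE) _
    · rintro _ ⟨φ, hφ, rfl⟩ v hv
      exact Subtype.ext (hfix _ hφ v hv)
  obtain ⟨φ, hφ, x, hx, hne⟩ := hDn
  apply hne
  have h1 : res D ⟨φ, hEN hφ⟩ ∈ (E.subgroupOf (NA D)).map (res D) := ⟨⟨φ, hEN hφ⟩, hφ, rfl⟩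
  rw [hE', Subgroup.mem_bot] at h1
  exact congrArg (fun f : MulAut D => ((f ⟨x, hx⟩ : D) : T)) h1

end H87.OS
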