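import Mathlib
import Cfsg.Agent.Lib.H87.OS7

set_option autoImplicit false

/-! The perfect residual; Lemma B in solvable form. -/

open Subgroup

namespace H87.OS

universe u

/-- the largest perfect subgroup -/
def PR {X : Type*} [Group X] (M : Subgroup X) : Subgroup X := sSup {E | E ≤ M ∧ ⁅E, E⁆ = E}

section

variable {X : Type*} [Group X] {M : Subgroup X}

theorem PR_le : PR M ≤ M := sSup_le fun _ h => h.1

theorem le_PR {E : Subgroup X} (h : E ≤ M) (hE : ⁅E, E⁆ = E) : E ≤ PR M := le_sSup ⟨h, hE⟩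

theorem PR_perfect : ⁅PR M, PR M⁆ = PR M := by
  apply le_antisymm
  · rw [Subgroup.commutator_le]
    intro a ha b hb
    exact (PR M).mul_mem ((PR M).mul_mem ((PR M).mul_mem ha hb) ((PR M).inv_mem ha)) ((PR M).inv_mem hb)
  · conv_lhs => rw [PR]
    apply sSup_le
    rintro E ⟨hE, hp⟩
    rw [← hp]
    exact Subgroup.commutator_mono (le_PR hE hp) (le_PR hE hp)

theorem PR_conj {c : X} (hc : ∀ m ∈ M, c * m * c⁻¹ ∈ M) : ∀ m ∈ PR M, c * m * c⁻¹ ∈ PR M := by
  have h1 : (PR M).map (MulAut.conj c).toMonoidHom ≤ PR M := by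
    apply le_PR
    · rintro _ ⟨m, hm, rfl⟩
      exact hc m (PR_le hm)
    · exact perfect_map PR_perfect _
  intro m hm
  exact h1 ⟨m, hm, rfl⟩

theorem solvable_of_PR [Finite X] (h : PR M = ⊥) : Group.IsSolvable M := by
  by_contra hns
  classical
  obtain ⟨n, hn⟩ : ∃ n : ℕ, ∀ m : ℕ, Nat.card (derivedSeries M n) ≤ Nat.card (derivedSeries M m) := by
    refine ⟨Function.argmin (fun m => Nat.card (derivedSeries M m)), ?_⟩
    intro m
    exact Function.argmin_le (fun m => Nat.card (derivedSeries M m)) m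
  have h1 : ⁅derivedSeries M n, derivedSeries M n⁆ = derivedSeries M n := by
    apply Subgroup.eq_of_le_of_card_ge
    · exact commutator_le_left _ _
    · have := hn (n + 1)
      rwa [derivedSeries_succ] at this
  have h2 : derivedSeries M n ≠ ⊥ := fun h => hns ⟨⟨n, h⟩⟩
  apply h2
  have h3 : (derivedSeries M n).map M.subtype ≤ PR M := by
    apply le_PR
    · rintro _ ⟨m, _, rfl⟩
      exact m.2
    · exact perfect_map h1 _
  rw [h, le_bot_iff] at h3
  exact (Subgroup.map_eq_bot_iff_of_injective _ M.subtype_injective).1 h3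

theorem PR_mono {N : Subgroup X} (h : M ≤ N) : PR M ≤ PR N := le_PR (PR_le.trans h) PR_perfect

end

theorem lemB' (hFT : ∀ (H : Type u) [Group H] [Finite H], Odd (Nat.card H) → Group.IsSolvable H)
    {T : Type u} [Group T] [Finite T] (hT : IsPGroup 2 T) {V : Subgroup T} (hV : ∀ x, x ∈ V ↔ x ^ 2 = 1)
    (hVc : ∀ v ∈ V, ∀ x : T, v * x = x * v) {M J : Subgroup (MulAut T)}
    (hfix : ∀ φ ∈ M, ∀ v ∈ V, φ v = v) (hJM : ∀ j ∈ J, ∀ φ ∈ M, j * φ * j⁻¹ ∈ M)
    (htr : ∀ v ∈ V, ∀ w ∈ V, v ≠ 1 → w ≠ 1 → ∃ j ∈ J, j v = w) : Group.IsSolvable M := by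
  have hfin : Finite (MulAut T) := Finite.of_injective (fun f : MulAut T => (f : T → T)) DFunLike.coe_injective
  apply solvable_of_PR
  exact lemB hFT hT hV hVc PR_perfect (fun φ hφ => hfix φ (PR_le hφ)) (fun j hj => PR_conj (hJM j hj)) htr

end H87.OS
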