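import Mathlib
import Cfsg.Agent.Lib.H87.OS8

set_option autoImplicit false

/-! Sylow 2-subgroups in which all involutions commute. -/

open Subgroup

namespace H87.OS

universe u

section tools

variable {G : Type u} [Group G] [Finite G]

theorem mem_NA_of_le {W : Subgroup G} {φ : MulAut G} (h : ∀ x ∈ W, φ x ∈ W) : φ ∈ NA W := by
  intro s
  refine ⟨h s, fun hs => ?_⟩
  have h1 : W.map (φ : G →* G) = W := by
    apply Subgroup.eq_of_le_of_card_ge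
    · rintro _ ⟨x, hx, rfl⟩
      exact h x hx
    · rw [Subgroup.card_map_of_injective φ.injective]
  have h2 : φ s ∈ W.map (φ : G →* G) := by rw [h1]; exact hs
  obtain ⟨x, hx, hxs⟩ := h2
  have : x = s := φ.injective hxs
  rwa [← this]

theorem exists_conj_le {H A B : Subgroup G} (hA : A ≤ H) (hB : B ≤ H) (pA : IsPGroup 2 A) (pB : IsPGroup 2 B) :
    ∃ c ∈ H, ∃ P : Subgroup G, IsPGroup 2 P ∧ P ≤ H ∧ A ≤ P ∧ ∀ b ∈ B, c * b * c⁻¹ ∈ P := by
  have : Fact (Nat.Prime 2) := ⟨Nat.prime_two⟩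
  have pA' : IsPGroup 2 (A.subgroupOf H) := pA.of_equiv (Subgroup.subgroupOfEquivOfLe hA).symm
  have pB' : IsPGroup 2 (B.subgroupOf H) := pB.of_equiv (Subgroup.subgroupOfEquivOfLe hB).symm
  obtain ⟨P, hP⟩ := pA'.exists_le_sylow
  obtain ⟨Q, hQ⟩ := pB'.exists_le_sylow
  obtain ⟨c, hc⟩ := MulAction.exists_smul_eq H Q P
  refine ⟨c, c.2, (P : Subgroup H).map H.subtype, P.isPGroup'.map _, ?_, ?_, ?_⟩
  · rintro _ ⟨x, _, rfl⟩
    exact x.2
  · intro a ha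
    exact ⟨⟨a, hA ha⟩, hP ha, rfl⟩
  · intro b hb
    refine ⟨c * ⟨b, hB hb⟩ * c⁻¹, ?_, rfl⟩
    have h1 : c * ⟨b, hB hb⟩ * c⁻¹ ∈ ((c • Q : Sylow 2 H) : Subgroup H) := ⟨⟨b, hB hb⟩, hQ hb, rfl⟩
    rwa [hc] at h1

theorem exists_conj_sylow (S : Sylow 2 G) {P : Subgroup G} (hP : IsPGroup 2 P) :
    ∃ h : G, ∀ x ∈ P, h⁻¹ * x * h ∈ (S : Subgroup G) := by
  have : Fact (Nat.Prime 2) := ⟨Nat.prime_two⟩
  obtain ⟨Q, hQ⟩ := hP.exists_le_sylow
  obtain ⟨c, hc⟩ := MulAction.exists_smul_eq G Q S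
  refine ⟨c⁻¹, fun x hx => ?_⟩
  have h1 : c * x * c⁻¹ ∈ ((c • Q : Sylow 2 G) : Subgroup G) := ⟨x, hQ hx, rfl⟩
  rw [hc] at h1
  rw [inv_inv]
  exact h1

end tools

/-- the context -/
structure IC {G : Type u} [Group G] [Finite G] (S : Sylow 2 G) (V : Subgroup G) : Prop where
  mem : ∀ x, x ∈ V ↔ x ∈ (S : Subgroup G) ∧ x ^ 2 = 1
  conj : ∀ x ∈ V, ∀ y ∈ V, x ≠ 1 → y ≠ 1 → ∃ g : G, g * x * g⁻¹ = y

theorem exists_IC {G : Type u} [Group G] [Finite G] (S : Sylow 2 G)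
    (h1 : ∀ s ∈ S, ∀ t ∈ S, orderOf s = 2 → orderOf t = 2 → s * t = t * s)
    (h2 : ∀ s ∈ S, ∀ t ∈ S, orderOf s = 2 → orderOf t = 2 → ∃ g : G, g * s * g⁻¹ = t) :
    ∃ V : Subgroup G, IC S V := by
  have : Fact (Nat.Prime 2) := ⟨Nat.prime_two⟩
  refine ⟨{ carrier := {x | x ∈ (S : Subgroup G) ∧ x ^ 2 = 1}
            one_mem' := ⟨one_mem _, one_pow _⟩
            mul_mem' := ?_
            inv_mem' := fun {a} ha => ⟨inv_mem ha.1, by rw [inv_pow, ha.2, inv_one]⟩ }, ⟨fun x => Iff.rfl, ?_⟩⟩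
  · rintro a b ⟨ha, ha2⟩ ⟨hb, hb2⟩
    refine ⟨mul_mem ha hb, ?_⟩
    have hab : a * b = b * a := by
      by_cases ha1 : a = 1
      · rw [ha1, one_mul, mul_one]
      by_cases hb1 : b = 1
      · rw [hb1, one_mul, mul_one]
      exact h1 a ha b hb (orderOf_eq_prime ha2 ha1) (orderOf_eq_prime hb2 hb1)
    rw [(show Commute a b from hab).mul_pow, ha2, hb2, one_mul]
  · intro x hx y hy hx1 hy1
    exact h2 x hx.1 y hy.1 (orderOf_eq_prime hx.2 hx1) (orderOf_eq_prime hy.2 hy1)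

namespace IC

variable {G : Type u} [Group G] [Finite G] {S : Sylow 2 G} {V : Subgroup G} (h : IC S V)
include h

theorem le : V ≤ S := fun x hx => ((h.mem x).1 hx).1

theorem sq {x : G} (hx : x ∈ V) : x ^ 2 = 1 := ((h.mem x).1 hx).2

theorem comm {x y : G} (hx : x ∈ V) (hy : y ∈ V) : x * y = y * x := by
  have h1 := h.sq hx
  have h2 := h.sq hy
  have h3 := h.sq (V.mul_mem hx hy)
  rw [pow_two] at h1 h2 h3
  have hxi : x⁻¹ = x := inv_eq_of_mul_eq_one_left h1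
  have hyi : y⁻¹ = y := inv_eq_of_mul_eq_one_left h2
  have h4 : (x * y)⁻¹ = x * y := inv_eq_of_mul_eq_one_left h3
  rw [mul_inv_rev, hxi, hyi] at h4
  exact h4.symm

theorem pV : IsPGroup 2 V := S.isPGroup'.to_le h.le

/-- `V ≤ S^g` implies `g ∈ N(V)` -/
theorem conj_NA {g : G} (hg : ∀ v ∈ V, g⁻¹ * v * g ∈ (S : Subgroup G)) : MulAut.conj g ∈ NA V := by
  have h1 : MulAut.conj g⁻¹ ∈ NA V := by
    apply mem_NA_of_le
    intro x hx
    rw [MulAut.conj_apply, inv_inv, h.mem]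
    refine ⟨hg x hx, ?_⟩
    have h2 := h.sq hx
    rw [pow_two] at h2 ⊢
    calc g⁻¹ * x * g * (g⁻¹ * x * g) = g⁻¹ * (x * x) * g := by group
      _ = 1 := by rw [h2]; group
  have h2 := (NA V).inv_mem h1
  rwa [← map_inv, inv_inv] at h2

/-- `N(V)` is transitive on the involutions of `V` -/
theorem trans {x y : G} (hx : x ∈ V) (hy : y ∈ V) (hx1 : x ≠ 1) (hy1 : y ≠ 1) :
    ∃ g : G, MulAut.conj g ∈ NA V ∧ g * x * g⁻¹ = y := by
  obtain ⟨g0, hg0⟩ := h.conj x hx y hy hx1 hy1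
  have hA : V ≤ centralizer {y} := by
    intro v hv
    rw [mem_centralizer_singleton_iff]
    exact h.comm hv hy
  have hB : V.map (MulAut.conj g0).toMonoidHom ≤ centralizer {y} := by
    rintro _ ⟨v, hv, rfl⟩
    rw [mem_centralizer_singleton_iff]
    change g0 * v * g0⁻¹ * y = y * (g0 * v * g0⁻¹)
    rw [← hg0]
    have := h.comm hv hx
    calc g0 * v * g0⁻¹ * (g0 * x * g0⁻¹) = g0 * (v * x) * g0⁻¹ := by group
      _ = _ := by rw [this]; group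
  obtain ⟨c, hc, P, hP, -, hVP, hcP⟩ := exists_conj_le hA hB h.pV (h.pV.map _)
  obtain ⟨k, hk⟩ := exists_conj_sylow S hP
  have hkN : MulAut.conj k ∈ NA V := h.conj_NA fun v hv => hk v (hVP hv)
  have h2 : MulAut.conj (k⁻¹ * (c * g0)) ∈ NA V := by
    apply mem_NA_of_le
    intro v hv
    rw [MulAut.conj_apply, h.mem]
    constructor
    · have h3 := hk _ (hcP _ ⟨v, hv, rfl⟩)
      have h4 : k⁻¹ * (c * (MulAut.conj g0).toMonoidHom v * c⁻¹) * k = k⁻¹ * (c * g0) * v * (k⁻¹ * (c * g0))⁻¹ := by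
        change k⁻¹ * (c * (g0 * v * g0⁻¹) * c⁻¹) * k = _
        group
      rwa [h4] at h3
    · rw [conj_pow, h.sq hv, mul_one, mul_inv_cancel]
  refine ⟨c * g0, ?_, ?_⟩
  · have h3 := (NA V).mul_mem hkN h2
    rwa [← map_mul, mul_inv_cancel_left] at h3
  · rw [mem_centralizer_singleton_iff] at hc
    calc c * g0 * x * (c * g0)⁻¹ = c * (g0 * x * g0⁻¹) * c⁻¹ := by group
      _ = c * y * c⁻¹ := by rw [hg0]
      _ = y := by rw [hc]; group

/-- `T₀ = C_S(V)` -/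
theorem mem_T0 {x : G} : x ∈ (S : Subgroup G) ⊓ centralizer (V : Set G) ↔ x ∈ (S : Subgroup G) ∧ ∀ v ∈ V, v * x = x * v := by
  rw [mem_inf, mem_centralizer_iff]
  rfl

/-- `N(V) ∩ N(T₀)` is transitive on the involutions of `V` -/
theorem trans' {x y : G} (hx : x ∈ V) (hy : y ∈ V) (hx1 : x ≠ 1) (hy1 : y ≠ 1) :
    ∃ g : G, MulAut.conj g ∈ NA V ∧ MulAut.conj g ∈ NA ((S : Subgroup G) ⊓ centralizer (V : Set G)) ∧ g * x * g⁻¹ = y := by
  obtain ⟨g, hg, hgx⟩ := h.trans hx hy hx1 hy1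
  set T0 := (S : Subgroup G) ⊓ centralizer (V : Set G) with hT0
  have pT0 : IsPGroup 2 T0 := S.isPGroup'.to_le inf_le_left
  have hVT : V ≤ T0 := fun v hv => h.mem_T0.2 ⟨h.le hv, fun w hw => h.comm hw hv⟩
  have hB : T0.map (MulAut.conj g).toMonoidHom ≤ centralizer (V : Set G) := by
    rintro _ ⟨t, ht, rfl⟩
    rw [mem_centralizer_iff]
    intro v hv
    change v * (g * t * g⁻¹) = g * t * g⁻¹ * v
    have h1 : g⁻¹ * v * g ∈ V := by
      have h2 := ((NA V).inv_mem hg v).1 hv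
      rw [← map_inv, MulAut.conj_apply, inv_inv] at h2
      exact h2
    have h3 := (h.mem_T0.1 ht).2 _ h1
    calc v * (g * t * g⁻¹) = g * (g⁻¹ * v * g * t) * g⁻¹ := by group
      _ = _ := by rw [h3]; group
  obtain ⟨c, hc, P, hP, hPC, hTP, hcP⟩ := exists_conj_le (inf_le_right : T0 ≤ centralizer (V : Set G)) hB pT0 (pT0.map _)
  obtain ⟨k, hk⟩ := exists_conj_sylow S hP
  have hkN : MulAut.conj k ∈ NA V := h.conj_NA fun v hv => hk v (hTP (hVT hv))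
  have hPT : T0 = P := by
    apply Subgroup.eq_of_le_of_card_ge hTP
    have h1 : P.map (MulAut.conj k⁻¹).toMonoidHom ≤ T0 := by
      rintro _ ⟨p, hp, rfl⟩
      rw [hT0, h.mem_T0]
      change k⁻¹ * p * k⁻¹⁻¹ ∈ _ ∧ ∀ v ∈ V, v * (k⁻¹ * p * k⁻¹⁻¹) = k⁻¹ * p * k⁻¹⁻¹ * v
      rw [inv_inv]
      refine ⟨hk p hp, fun v hv => ?_⟩
      have h2 : k * v * k⁻¹ ∈ V := (hkN v).1 hv
      have h3 : (k * v * k⁻¹) * p = p * (k * v * k⁻¹) := (mem_centralizer_iff.1 (hPC hp)) _ h2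
      calc v * (k⁻¹ * p * k) = k⁻¹ * ((k * v * k⁻¹) * p) * k := by group
        _ = _ := by rw [h3]; group
    have hcm : Nat.card (P.map (MulAut.conj k⁻¹).toMonoidHom) = Nat.card P :=
      Subgroup.card_map_of_injective (f := (MulAut.conj k⁻¹).toMonoidHom) (MulAut.conj k⁻¹).injective
    rw [← hcm]
    exact Subgroup.card_le_of_le h1
  refine ⟨c * g, ?_, ?_, ?_⟩
  · have hcN : MulAut.conj c ∈ NA V := by
      apply mem_NA_of_le
      intro v hv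
      rw [MulAut.conj_apply, ← (mem_centralizer_iff.1 hc) v hv, mul_inv_cancel_right]
      exact hv
    have h3 := (NA V).mul_mem hcN hg
    rwa [← map_mul] at h3
  · apply mem_NA_of_le
    intro t ht
    rw [hPT]
    have h3 := hcP _ ⟨t, ht, rfl⟩
    have h4 : c * (MulAut.conj g).toMonoidHom t * c⁻¹ = MulAut.conj (c * g) t := by
      rw [MulAut.conj_apply]
      change c * (g * t * g⁻¹) * c⁻¹ = _
      group
    rwa [h4] at h3
  · calc c * g * x * (c * g)⁻¹ = c * (g * x * g⁻¹) * c⁻¹ := by group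
      _ = c * y * c⁻¹ := by rw [hgx]
      _ = y := by rw [← (mem_centralizer_iff.1 hc) y hy, mul_inv_cancel_right]

end IC

end H87.OS
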