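import Mathlib
import Cfsg.Agent.Lib.H87.OS9

set_option autoImplicit false

/-! Perfect groups of automorphisms stabilising a Sylow 2-subgroup with commuting conjugate involutions act trivially on it. -/

open Subgroup

namespace H87.OS

universe u

/-- piece A -/
def QS : Prop := ∀ (K E : Type u) [Group K] [Finite K] [AddCommGroup E] [Finite E] [DistribMulAction K E]
  [FaithfulSMul K E] (_ : ∀ e : E, 2 • e = 0) (L : Subgroup K) [L.Normal]
  (_ : ∀ x y : E, x ≠ 0 → y ≠ 0 → ∃ l ∈ L, l • x = y), Group.IsSolvable (K ⧸ L)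

namespace IC

variable {G : Type u} [Group G] [Finite G] {S : Sylow 2 G} {V : Subgroup G} (h : IC S V)
include h

/-- Step 1 (a): a perfect group normalising `V` acts on `V` through `N_G(V)` -/
theorem inner_of_perfect (hA : QS.{u}) {E : Subgroup (MulAut G)} (hE : ⁅E, E⁆ = E) (hEV : E ≤ NA V) :
    ∀ φ ∈ E, ∃ g : G, MulAut.conj g ∈ NA V ∧ ∀ v ∈ V, φ v = g * v * g⁻¹ := by
  classical
  let _ : CommGroup V := { (inferInstance : Group V) with mul_comm := fun a b => Subtype.ext (h.comm a.2 b.2) }
  set K : Subgroup (MulAut V) := (res V).range with hK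
  let act : DistribMulAction K (Additive V) :=
    { smul := fun k a => Additive.ofMul ((k : MulAut V) a.toMul)
      one_smul := fun a => rfl
      mul_smul := fun a b c => rfl
      smul_zero := fun a => congrArg Additive.ofMul (map_one (a : MulAut V))
      smul_add := fun k a b => congrArg Additive.ofMul (map_mul (k : MulAut V) a.toMul b.toMul) }
  have hsm : ∀ (k : K) (a : Additive V), k • a = Additive.ofMul ((k : MulAut V) a.toMul) := fun _ _ => rfl
  have hfaith : FaithfulSMul K (Additive V) := ⟨by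
    intro a b hab
    apply Subtype.ext
    ext x
    have := hab (Additive.ofMul x)
    exact congrArg (fun t : Additive V => ((t.toMul : V) : G)) this⟩
  have hfinV : Finite (Additive V) := inferInstanceAs (Finite V)
  -- the inner part
  let L0 : Subgroup (NA V) := (MulAut.conj (G := G)).range.subgroupOf (NA V)
  have hL0 : L0.Normal := by
    refine ⟨fun a ha b => ?_⟩
    obtain ⟨g, hg⟩ := ha
    refine ⟨(b : MulAut G) g, ?_⟩
    rw [Subgroup.coe_subtype] at hg ⊢
    rw [Subgroup.coe_mul, Subgroup.coe_mul, Subgroup.coe_inv, ← hg]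
    ext x
    rw [MulAut.mul_apply, MulAut.mul_apply, MulAut.conj_apply, MulAut.conj_apply, map_mul, map_mul, map_inv,
      MulAut.apply_inv_self]
  let L : Subgroup K := (L0.map (res V).rangeRestrict)
  have hL : L.Normal := hL0.map _ (res V).rangeRestrict_surjective
  have hsol : Group.IsSolvable (K ⧸ L) := by
    apply hA K (Additive V) ?_ L ?_
    · intro e
      rw [two_nsmul]
      apply Additive.toMul.injective
      apply Subtype.ext
      have := h.sq e.toMul.2
      rw [pow_two] at this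
      exact this
    · intro x y hx hy
      obtain ⟨g, hg, hgx⟩ := h.trans (x := (x.toMul : V)) (y := (y.toMul : V)) x.toMul.2 y.toMul.2
        (fun hc => hx (Additive.toMul.injective (Subtype.ext hc))) (fun hc => hy (Additive.toMul.injective (Subtype.ext hc)))
      refine ⟨(res V).rangeRestrict ⟨MulAut.conj g, hg⟩, ⟨⟨MulAut.conj g, hg⟩, ⟨g, rfl⟩, rfl⟩, ?_⟩
      rw [hsm]
      apply Additive.toMul.injective
      exact Subtype.ext hgx
  intro φ hφ
  let f : E →* K ⧸ L := (QuotientGroup.mk' L).comp ((res V).rangeRestrict.comp (Subgroup.inclusion hEV))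
  have h1 := hom_trivial (commutator_top hE) hsol f ⟨φ, hφ⟩
  have h2 : (res V).rangeRestrict (Subgroup.inclusion hEV ⟨φ, hφ⟩) ∈ L := (QuotientGroup.eq_one_iff _).1 h1
  obtain ⟨ψ, ⟨g, hg⟩, hψ⟩ := h2
  refine ⟨g, ?_, ?_⟩
  · rw [hg]; exact ψ.2
  · intro v hv
    have h3 := congrArg (fun t : K => (((t : MulAut V) ⟨v, hv⟩ : V) : G)) hψ
    have h4 : (ψ : MulAut G) v = φ v := h3
    rw [← h4, ← MulAut.conj_apply, hg]
    rfl

/-- Step 1 -/
theorem fix_V (hFT : ∀ (H : Type u) [Group H] [Finite H], Odd (Nat.card H) → Group.IsSolvable H) (hA : QS.{u})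
    {E : Subgroup (MulAut G)} (hE : ⁅E, E⁆ = E) (hES : E ≤ NA (S : Subgroup G)) :
    ∀ φ ∈ E, ∀ v ∈ V, φ v = v := by
  classical
  have : Fact (Nat.Prime 2) := ⟨Nat.prime_two⟩
  have hEV : E ≤ NA V := by
    intro φ hφ
    apply mem_NA_of_le
    intro x hx
    rw [h.mem] at hx ⊢
    exact ⟨((hES hφ) x).1 hx.1, by rw [← map_pow, hx.2, map_one]⟩
  -- N = {g | conj g ∈ NA V}
  let N : Subgroup G := (NA V).comap MulAut.conj
  have hSN : (S : Subgroup G) ≤ N := by
    intro s hs
    apply mem_NA_of_le (W := V)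
    intro v hv
    rw [MulAut.conj_apply, h.mem]
    exact ⟨mul_mem (mul_mem hs (h.le hv)) (inv_mem hs), by rw [conj_pow, h.sq hv, mul_one, mul_inv_cancel]⟩
  let γ0 : N →* NA V :=
    { toFun := fun g => ⟨MulAut.conj (g : G), g.2⟩
      map_one' := Subtype.ext (map_one MulAut.conj)
      map_mul' := fun a b => Subtype.ext (map_mul MulAut.conj (a : G) b) }
  let γ : N →* MulAut V := (res V).comp γ0
  have hγ : ∀ (g : N) (v : V), ((γ g v : V) : G) = g * v * (g : G)⁻¹ := fun g v => rfl
  set Sb : Subgroup (MulAut V) := ((S : Subgroup G).subgroupOf N).map γ with hSb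
  set M : Subgroup (MulAut V) := γ.range ⊓ normalizer (Sb : Set (MulAut V)) with hM
  have hSbL : Sb ≤ γ.range := by
    rintro _ ⟨s, _, rfl⟩
    exact ⟨s, rfl⟩
  have hSbM : Sb ≤ M := le_inf hSbL le_normalizer
  have hfinA : Finite (MulAut V) := Finite.of_injective (fun f : MulAut V => (f : V → V)) DFunLike.coe_injective
  have pSb : IsPGroup 2 Sb := by
    apply IsPGroup.map
    exact S.isPGroup'.of_equiv (Subgroup.subgroupOfEquivOfLe hSN).symm
  have hodd : Odd ((Sb.subgroupOf M).index) := by
    have h1 : ¬ 2 ∣ ((S : Subgroup G).subgroupOf N).index := by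
      intro h2
      have h3 : ((S : Subgroup G).subgroupOf N).index ∣ (S : Subgroup G).index := Subgroup.relIndex_dvd_index_of_le hSN
      exact S.not_dvd_index (h2.trans h3)
    have h2 : Sb.relIndex γ.range ∣ ((S : Subgroup G).subgroupOf N).index := by
      have h3 := Subgroup.relIndex_map_map (f := γ) (H := (S : Subgroup G).subgroupOf N) (K := ⊤)
      rw [← MonoidHom.range_eq_map, ← hSb, top_sup_eq, Subgroup.relIndex_top_right] at h3
      rw [h3]
      exact Subgroup.index_dvd_of_le le_sup_left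
    have h3 : Sb.relIndex M ∣ Sb.relIndex γ.range := by
      rw [← Subgroup.relIndex_mul_relIndex Sb M γ.range hSbM inf_le_left]
      exact Dvd.intro _ rfl
    rw [← Nat.not_even_iff_odd, even_iff_two_dvd]
    intro h4
    exact h1 (h4.trans (h3.trans h2))
  have hMs : Group.IsSolvable M := by
    have hn : (Sb.subgroupOf M).Normal := by
      have h1 : M ≤ normalizer (Sb : Set (MulAut V)) := inf_le_right
      exact (Subgroup.normal_subgroupOf_iff_le_normalizer hSbM).2 h1
    apply (Group.isSolvable_iff_subgroup_quotient (Sb.subgroupOf M)).2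
    constructor
    · have h1 : IsPGroup 2 (Sb.subgroupOf M) := pSb.of_equiv (Subgroup.subgroupOfEquivOfLe hSbM).symm
      have := h1.isNilpotent
      infer_instance
    · apply hFT
      exact hodd
  -- image of E
  have hEM : (E.subgroupOf (NA V)).map (res V) ≤ M := by
    rintro _ ⟨φ, hφ, rfl⟩
    rw [SetLike.mem_coe, mem_subgroupOf] at hφ
    refine mem_inf.2 ⟨?_, ?_⟩
    · obtain ⟨g, hg, hgv⟩ := h.inner_of_perfect hA hE hEV _ hφ
      refine ⟨⟨g, hg⟩, ?_⟩
      ext v
      rw [hγ]
      exact (hgv v v.2).symm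
    · have key : ∀ ψ : NA V, (ψ : MulAut G) ∈ E → ∀ x ∈ Sb, res V ψ * x * (res V ψ)⁻¹ ∈ Sb := by
        rintro ψ hψ _ ⟨s, hs, rfl⟩
        have hs' : (s : G) ∈ (S : Subgroup G) := hs
        have h1 : (ψ : MulAut G) s ∈ (S : Subgroup G) := ((hES hψ) _).1 hs'
        refine ⟨⟨(ψ : MulAut G) s, hSN h1⟩, h1, ?_⟩
        ext v
        have h5 : (ψ : MulAut G) (((res V ψ)⁻¹ v : V) : G) = v :=
          congrArg Subtype.val (MulAut.apply_inv_self V (res V ψ) v)
        rw [hγ, MulAut.mul_apply, MulAut.mul_apply, res_apply, hγ, map_mul, map_mul, map_inv, h5]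
      rw [Subgroup.mem_normalizer_iff]
      intro x
      constructor
      · intro hx
        exact key φ hφ x hx
      · intro hx
        have h1 := key φ⁻¹ (E.inv_mem hφ) _ hx
        rw [map_inv, inv_inv] at h1
        have h2 : (res V φ)⁻¹ * (res V φ * x * (res V φ)⁻¹) * res V φ = x := by group
        rwa [h2] at h1
  have hEs : Group.IsSolvable ((E.subgroupOf (NA V)).map (res V)) :=
    Group.isSolvable_of_isSolvable_injective (Subgroup.inclusion_injective hEM)
  have hEb := eq_bot_of_perfect hEs (perfect_map (perfect_subgroupOf hEV hE) _)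
  intro φ hφ v hv
  have h1 : res V ⟨φ, hEV hφ⟩ ∈ (E.subgroupOf (NA V)).map (res V) := ⟨⟨φ, hEV hφ⟩, hφ, rfl⟩
  rw [hEb, Subgroup.mem_bot] at h1
  exact congrArg (fun f : MulAut V => ((f ⟨v, hv⟩ : V) : G)) h1

end IC

end H87.OS
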