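import Mathlib
import Cfsg.Agent.Lib.H87.OS10

set_option autoImplicit false

/-! Automorphisms stabilising a Sylow 2-subgroup with commuting conjugate involutions induce a solvable group on it. -/

open Subgroup

namespace H87.OS

universe u

namespace IC

variable {G : Type u} [Group G] [Finite G] {S : Sylow 2 G} {V : Subgroup G} (h : IC S V)
include h

/-- Step 2 -/
theorem fix_T0 (hFT : ∀ (H : Type u) [Group H] [Finite H], Odd (Nat.card H) → Group.IsSolvable H) (hA : QS.{u})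
    {E : Subgroup (MulAut G)} (hE : ⁅E, E⁆ = E) (hES : E ≤ NA (S : Subgroup G)) :
    ∀ φ ∈ E, ∀ t ∈ (S : Subgroup G) ⊓ centralizer (V : Set G), φ t = t := by
  classical
  have : Fact (Nat.Prime 2) := ⟨Nat.prime_two⟩
  have hEfix := h.fix_V hFT hA hE hES
  set T0 := (S : Subgroup G) ⊓ centralizer (V : Set G) with hT0
  have pT0 : IsPGroup 2 T0 := S.isPGroup'.to_le inf_le_left
  have hVT : V ≤ T0 := fun v hv => h.mem_T0.2 ⟨h.le hv, fun w hw => h.comm hw hv⟩
  have hET : E ≤ NA T0 := by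
    intro φ hφ
    apply mem_NA_of_le
    intro x hx
    rw [h.mem_T0] at hx ⊢
    refine ⟨((hES hφ) x).1 hx.1, fun v hv => ?_⟩
    have h1 := congrArg φ (hx.2 v hv)
    rw [map_mul, map_mul, hEfix φ hφ v hv] at h1
    exact h1
  let M0 : Subgroup (MulAut G) :=
    { carrier := {φ | φ ∈ NA T0 ∧ ∀ v ∈ V, φ v = v}
      one_mem' := ⟨one_mem _, fun _ _ => rfl⟩
      mul_mem' := fun {a b} ha hb => ⟨mul_mem ha.1 hb.1, fun v hv => by rw [MulAut.mul_apply, hb.2 v hv, ha.2 v hv]⟩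
      inv_mem' := fun {a} ha => ⟨inv_mem ha.1, fun v hv => by
        have h1 := MulAut.inv_apply_self G a v
        rwa [ha.2 v hv] at h1⟩ }
  let J0 : Subgroup (MulAut G) := NA V ⊓ NA T0
  set M1 := (M0.subgroupOf (NA T0)).map (res T0) with hM1
  set J1 := (J0.subgroupOf (NA T0)).map (res T0) with hJ1
  have hM1s : Group.IsSolvable M1 := by
    refine lemB' hFT pT0 (V := V.subgroupOf T0) (J := J1) ?_ ?_ ?_ ?_ ?_
    · intro x
      rw [mem_subgroupOf, h.mem]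
      constructor
      · intro h1; exact Subtype.ext h1.2
      · intro h1; exact ⟨(mem_inf.1 x.2).1, congrArg Subtype.val h1⟩
    · intro v hv x
      exact Subtype.ext ((h.mem_T0.1 x.2).2 _ hv)
    · rintro _ ⟨φ, hφ, rfl⟩ v hv
      exact Subtype.ext (hφ.2 _ hv)
    · rintro _ ⟨j, hj, rfl⟩ _ ⟨φ, hφ, rfl⟩
      refine ⟨j * φ * j⁻¹, ?_, by rw [map_mul, map_mul, map_inv]⟩
      refine ⟨(j * φ * j⁻¹).2, fun v hv => ?_⟩
      change (j : MulAut G) ((φ : MulAut G) ((j : MulAut G)⁻¹ v)) = v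
      have h1 : (j : MulAut G)⁻¹ v ∈ V := ((NA V).inv_mem (mem_inf.1 hj).1 v).1 hv
      have h2 : (φ : MulAut G) ((j : MulAut G)⁻¹ v) = (j : MulAut G)⁻¹ v := hφ.2 _ h1
      rw [h2, MulAut.apply_inv_self]
    · intro v hv w hw hv1 hw1
      obtain ⟨g, hg, hgT, hgv⟩ := h.trans' (x := (v : G)) (y := (w : G)) hv hw (fun hc => hv1 (Subtype.ext hc))
        (fun hc => hw1 (Subtype.ext hc))
      exact ⟨res T0 ⟨MulAut.conj g, hgT⟩, ⟨⟨MulAut.conj g, hgT⟩, mem_inf.2 ⟨hg, hgT⟩, rfl⟩, Subtype.ext hgv⟩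
  have hEM : (E.subgroupOf (NA T0)).map (res T0) ≤ M1 := by
    rintro _ ⟨φ, hφ, rfl⟩
    exact ⟨φ, ⟨φ.2, fun v hv => hEfix _ hφ v hv⟩, rfl⟩
  have hEs : Group.IsSolvable ((E.subgroupOf (NA T0)).map (res T0)) :=
    Group.isSolvable_of_isSolvable_injective (Subgroup.inclusion_injective hEM)
  have hEb := eq_bot_of_perfect hEs (perfect_map (perfect_subgroupOf hET hE) _)
  intro φ hφ t ht
  have h1 : res T0 ⟨φ, hET hφ⟩ ∈ (E.subgroupOf (NA T0)).map (res T0) := ⟨⟨φ, hET hφ⟩, hφ, rfl⟩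
  rw [hEb, Subgroup.mem_bot] at h1
  exact congrArg (fun f : MulAut T0 => ((f ⟨t, ht⟩ : T0) : G)) h1

/-- Step 3 -/
theorem fix_S (hFT : ∀ (H : Type u) [Group H] [Finite H], Odd (Nat.card H) → Group.IsSolvable H) (hA : QS.{u})
    {E : Subgroup (MulAut G)} (hE : ⁅E, E⁆ = E) (hES : E ≤ NA (S : Subgroup G)) :
    ∀ φ ∈ E, ∀ s ∈ (S : Subgroup G), φ s = s := by
  have : Fact (Nat.Prime 2) := ⟨Nat.prime_two⟩
  have hV := h.fix_V hFT hA hE hES
  have hT := h.fix_T0 hFT hA hE hES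
  have hSs : Group.IsSolvable (S : Subgroup G) := by have := S.isPGroup'.isNilpotent; infer_instance
  have hE' := perfect_map (perfect_subgroupOf hES hE) (res (S : Subgroup G))
  have hdisp : ∀ φ ∈ E, ∀ s ∈ (S : Subgroup G), s⁻¹ * φ s ∈ (S : Subgroup G) ⊓ centralizer (V : Set G) := by
    intro φ hφ s hs
    rw [h.mem_T0]
    refine ⟨mul_mem (inv_mem hs) (((hES hφ) s).1 hs), fun v hv => ?_⟩
    have h1 : s * v * s⁻¹ ∈ V := by
      rw [h.mem]
      exact ⟨mul_mem (mul_mem hs (h.le hv)) (inv_mem hs), by rw [conj_pow, h.sq hv, mul_one, mul_inv_cancel]⟩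
    have h2 := hV φ hφ _ h1
    rw [map_mul, map_mul, map_inv, hV φ hφ v hv] at h2
    -- φ s v (φ s)⁻¹ = s v s⁻¹
    have h3 : (s⁻¹ * φ s) * v * (s⁻¹ * φ s)⁻¹ = v := by
      calc (s⁻¹ * φ s) * v * (s⁻¹ * φ s)⁻¹ = s⁻¹ * (φ s * v * (φ s)⁻¹) * s := by group
        _ = s⁻¹ * (s * v * s⁻¹) * s := by rw [h2]
        _ = v := by group
    exact (mul_inv_eq_iff_eq_mul.1 h3).symm
  intro φ hφ s hs
  have h1 := fix_of hSs hE' (x := ⟨s, hs⟩) (by
    rintro _ ⟨a, ha, rfl⟩ _ ⟨b, hb, rfl⟩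
    exact Subtype.ext (hT _ hb _ (hdisp _ ha s hs))) (res (S : Subgroup G) ⟨φ, hES hφ⟩) ⟨⟨φ, hES hφ⟩, hφ, rfl⟩
  exact congrArg Subtype.val h1

/-- the group induced on `S` is solvable -/
theorem solvable (hFT : ∀ (H : Type u) [Group H] [Finite H], Odd (Nat.card H) → Group.IsSolvable H) (hA : QS.{u}) :
    Group.IsSolvable (res (S : Subgroup G)).range := by
  classical
  have hfinA : Finite (MulAut G) := Finite.of_injective (fun f : MulAut G => (f : G → G)) DFunLike.coe_injective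
  set f := (res (S : Subgroup G)).rangeRestrict with hf
  have hfs : Function.Surjective f := (res (S : Subgroup G)).rangeRestrict_surjective
  obtain ⟨n, hn⟩ : ∃ n : ℕ, ∀ m : ℕ, Nat.card (derivedSeries (NA (S : Subgroup G)) n) ≤
      Nat.card (derivedSeries (NA (S : Subgroup G)) m) := by
    refine ⟨Function.argmin (fun m => Nat.card (derivedSeries (NA (S : Subgroup G)) m)), ?_⟩
    intro m
    exact Function.argmin_le (fun m => Nat.card (derivedSeries (NA (S : Subgroup G)) m)) m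
  have h1 : ⁅derivedSeries (NA (S : Subgroup G)) n, derivedSeries (NA (S : Subgroup G)) n⁆ =
      derivedSeries (NA (S : Subgroup G)) n := by
    apply Subgroup.eq_of_le_of_card_ge
    · exact commutator_le_left _ _
    · have := hn (n + 1)
      rwa [derivedSeries_succ] at this
  refine ⟨⟨n, ?_⟩⟩
  rw [← map_derivedSeries_eq hfs n, eq_bot_iff]
  rintro _ ⟨ψ, hψ, rfl⟩
  rw [Subgroup.mem_bot]
  have h2 := h.fix_S hFT hA (E := (derivedSeries (NA (S : Subgroup G)) n).map (NA (S : Subgroup G)).subtype)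
    (perfect_map h1 _) (by rintro _ ⟨a, _, rfl⟩; exact a.2) ψ ⟨ψ, hψ, rfl⟩
  apply Subtype.ext
  ext s
  exact h2 s s.2

end IC

end H87.OS
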