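import Cfsg.Agent.Lib.H87.NE5
import Cfsg.Agent.Lib.H87.Crit5
import Cfsg.Agent.Lib.H87.PPow

/-!
Products of a normal subsystem with a p-subgroup (S5143): shared definitions.
-/

set_option autoImplicit false
open Cfsg Cfsg.FusionSystem

namespace H87.PD

open H87.Base H87.Basic H87.Syl H87.Sat H87.Grow H87.Inv H87.Frat H87.Cut H87.PPow H87.Crit H87.NE

variable {Ω : Type*} [Group Ω] {S T : Subgroup Ω} {F : FusionSystem S} {E : FusionSystem T}
  {P Q R U : Subgroup Ω} {f g : Ω → Ω} {p : ℕ}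

/-- automorphisms `κ ∈ Aut_F(U)` that are trivial modulo `T` and restrict to a map of `E` on `U ⊓ T`. -/
def IsK (F : FusionSystem S) (E : FusionSystem T) (U : Subgroup Ω) (κ : MulAut U) : Prop :=
  κ ∈ F.autGroup U ∧ (∀ x ∈ U, x⁻¹ * fn κ x ∈ T) ∧ IsMap E (U ⊓ T) (fn κ)

/-- the elements of order prime to `p` of `K(U)`. -/
def IsKp (F : FusionSystem S) (E : FusionSystem T) (p : ℕ) (U : Subgroup Ω) (κ : MulAut U) : Prop :=
  IsK F E U κ ∧ (orderOf κ).Coprime p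

/-- `A°(U)`. -/
def LG (F : FusionSystem S) (E : FusionSystem T) (p : ℕ) (U : Subgroup Ω) : Subgroup (MulAut U) :=
  Subgroup.closure {κ | IsKp F E p U κ}

/-- `P` has an `F`-nice conjugate `P'` over an `F`-nice `P' ⊓ T` by a map on `N_S(P)` which is onto `N_T(P')`. -/
def TFN (F : FusionSystem S) (p : ℕ) (T P : Subgroup Ω) : Prop :=
  ∃ (ψ : Ω → Ω) (P' : Subgroup Ω), IsMap F (normalizerIn S P) ψ ∧ IsIso F P P' ψ ∧ IsNice F p P' ∧
    IsNice F p (P' ⊓ T) ∧ F.IsFullyNormalized P' ∧ F.IsFullyNormalized (P' ⊓ T) ∧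
    ∀ t ∈ normalizerIn T P', ∃ u ∈ normalizerIn T P, ψ u = t

end H87.PD
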