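import Cfsg.Agent.Lib.H87.PD1
set_option autoImplicit false

open Cfsg Cfsg.FusionSystem

namespace H87.PD

open H87.Base H87.Basic H87.Syl H87.Sat H87.Grow H87.Inv H87.Frat H87.Cut H87.PPow H87.Crit H87.NE

variable {Ω : Type*} [Group Ω] {S T : Subgroup Ω} {F : FusionSystem S} {E : FusionSystem T}
  {P Q R U M P₀ : Subgroup Ω} {f g : Ω → Ω} {p : ℕ}

/-- every proper overgroup of a conjugate of `P₀` has a nice conjugate. -/
def Above (F : FusionSystem S) (p : ℕ) (P₀ : Subgroup Ω) : Prop :=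
  ∀ P R : Subgroup Ω, F.IsConj P₀ P → P < R → R ≤ S → ∃ U, F.IsConj R U ∧ IsNice F p U

theorem reach_of_edge' [Fact p.Prime] [Finite S] (hS : IsPGroup p S)
    (hG : Above F p P₀)
    (hfn : F.IsFullyNormalized P₀) :
    ∀ (m : ℕ) (P Q R : Subgroup Ω) (f : Ω → Ω), Nat.card S - Nat.card R = m → F.IsConj P₀ P → P < R →
      R ≤ normalizerIn S P → IsMap F R f → IsIso F P Q f → Reach F P P₀ → Reach F Q P₀ := by
  intro m
  induction m using Nat.strong_induction_on with
  | _ m ih =>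
  have case1 : ∀ (P Q R : Subgroup Ω) (f : Ω → Ω), Nat.card S - Nat.card R = m → F.IsConj P₀ P → P < R →
      R < normalizerIn S P → IsMap F R f → IsIso F P Q f → img R f < normalizerIn S Q → Reach F P P₀ → Reach F Q P₀ := by
    intro P Q R f hm hcP hPR hRN hf hPQ hR₂ hr
    have hg := hf.isIso
    have hRS : R ≤ S := hf.le
    have hcard : Nat.card R = Nat.card (img R f) := hg.card_eq
    have hQR₂ : Q ≤ img R f := by
      intro y hy
      obtain ⟨x, hx, rfl⟩ := hPQ.surj hy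
      exact apply_mem_img (hPR.le hx)
    have hQR₂' : Q < img R f := lt_of_le_of_ne hQR₂ fun e => by
      have h1 := hPQ.card_eq
      have h2 := card_lt_of_lt hPR hRS
      rw [← e] at hcard
      omega
    obtain ⟨U, hU, hUn⟩ := hG Q (img R f) (isConj_trans hcP hPQ.isConj) hQR₂' hg.le'
    obtain ⟨P₃, σ, θ, hσ, hσi, hθ, hθi⟩ := path hS hUn hg hU hPR.le hPQ
    have hA := lt_inf hS hRN
    have hB := lt_inf hS hR₂
    rw [sup_eq_right.2 hA.le] at hσ
    rw [sup_eq_right.2 hB.le] at hθ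
    have hAS : Nat.card (normalizerIn S P ⊓ normalizerIn S R : Subgroup Ω) ≤ Nat.card S := card_le_of_le hσ.le le_rfl
    have hAc := card_lt_of_lt hA hσ.le
    have hBS : Nat.card (normalizerIn S Q ⊓ normalizerIn S (img R f) : Subgroup Ω) ≤ Nat.card S :=
      card_le_of_le hθ.le le_rfl
    have hBc := card_lt_of_lt hB hθ.le
    -- first step
    have h1 : Reach F P₃ P₀ := ih _ (by omega) P P₃ _ σ rfl hcP (hPR.trans hA) inf_le_left hσ hσi hr
    -- second step
    have hθ' := hθ.isIso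
    obtain ⟨k, hk, k1, k2⟩ := hθ'.symm
    have hQB := hQR₂.trans hB.le
    have hki := iso_symm_restrict hk k1 hθ' hQB hθi
    have hcP₃ : F.IsConj P₀ P₃ := isConj_trans hcP hσi.isConj
    have hQlt : Q < normalizerIn S Q ⊓ normalizerIn S (img R f) := by
      refine lt_of_le_of_lt hQR₂ hB
    have hP₃le : P₃ ≤ img (normalizerIn S Q ⊓ normalizerIn S (img R f)) θ := by
      intro y hy
      obtain ⟨x, hx, rfl⟩ := hθi.surj hy
      exact apply_mem_img (hQB hx)
    have hci := hθ'.card_eq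
    have hcQ := hθi.card_eq
    refine ih _ ?_ P₃ Q _ k rfl hcP₃ (lt_of_le_of_ne hP₃le fun e => ?_) ?_ hk.isMap hki h1
    · rw [← hci]; omega
    · have h3 := card_lt_of_lt hQlt hθ.le
      rw [← e] at hci
      omega
    · intro y hy
      obtain ⟨x, hx, rfl⟩ := (mem_img hθ).1 hy
      exact map_mem_norm hθ inf_le_left hQB hθi hx
  intro P Q R f hm hcP hPR hRN hf hPQ hr
  have hg := hf.isIso
  have hR₂N : img R f ≤ normalizerIn S Q := by
    intro y hy
    obtain ⟨x, hx, rfl⟩ := (mem_img hf).1 hy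
    exact map_mem_norm hf hRN hPR.le hPQ hx
  rcases hR₂N.lt_or_eq with h2 | h2
  · rcases hRN.lt_or_eq with h1 | h1
    · exact case1 P Q R f hm hcP hPR h1 hf hPQ h2 hr
    · obtain ⟨g, hg', hgi⟩ := hr
      rw [← h1] at hg'
      have hg'' := hg'.isIso
      obtain ⟨k, hk, k1, k2⟩ := hg''.symm
      have hki := iso_symm_restrict hk k1 hg'' hPR.le hgi
      have hfk : IsMap F (img R g) (f ∘ k) := hk.isMap.comp hf fun x hx => hk.mem hx
      have him : img (img R g) (f ∘ k) = img R f := by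
        rw [← H87.Frat.img_img hk.isMap (by rw [hk.eq_img]; exact hf), hk.eq_img]
      have hgN : img R g ≤ normalizerIn S P₀ := by
        intro y hy
        obtain ⟨x, hx, rfl⟩ := (mem_img hg').1 hy
        exact map_mem_norm hg' hRN hPR.le hgi hx
      have hc1 := hg''.card_eq
      have hc2 := hg.card_eq
      have hc3 := card_lt_of_lt h2 normalizerIn_le
      have hcQ : F.IsConj P₀ Q := isConj_trans hcP hPQ.isConj
      have hc4 := hfn.2 Q hcQ
      refine case1 P₀ Q (img R g) (f ∘ k) (by rw [← hc1]; exact hm) (isConj_refl F hfn.1) ?_ ?_ hfk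
        (hki.comp hPQ) (by rw [him]; exact h2) (Reach.refl hfn.1)
      · refine lt_of_le_of_ne ?_ fun e => ?_
        · intro y hy
          obtain ⟨x, hx, rfl⟩ := hgi.surj hy
          exact apply_mem_img (hPR.le hx)
        · have h3 := card_lt_of_lt hPR hf.le
          have h4 := hgi.card_eq
          rw [← e] at hc1
          omega
      · refine lt_of_le_of_ne hgN fun e => ?_
        rw [e] at hc1
        omega
  · obtain ⟨k, hk, k1, k2⟩ := hg.symm
    have hki := iso_symm_restrict hk k1 hg hPR.le hPQ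
    rw [h2] at hk
    exact Reach.trans ⟨k, hk.isMap, hki⟩ hr

/-- the subgroup generated by the `p'`-elements of a subgroup of a group. -/
def op (p : ℕ) {X : Type*} [Group X] (M : Subgroup X) : Subgroup X :=
  Subgroup.closure {x | x ∈ M ∧ (orderOf x).Coprime p}

theorem op_le {X : Type*} [Group X] {M : Subgroup X} : op p M ≤ M := by
  rw [op, Subgroup.closure_le]
  exact fun x hx => hx.1

theorem op_normal {X : Type*} [Group X] {M : Subgroup X} : ∀ m ∈ M, ∀ l ∈ op p M, m * l * m⁻¹ ∈ op p M := by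
  intro m hm l hl
  refine Subgroup.closure_induction (p := fun l _ => m * l * m⁻¹ ∈ op p M) ?_ ?_ ?_ ?_ hl
  · intro x hx
    refine Subgroup.subset_closure ⟨M.mul_mem (M.mul_mem hm hx.1) (M.inv_mem hm), ?_⟩
    have h1 : orderOf (m * x * m⁻¹) = orderOf x := by
      have h2 := orderOf_injective (MulAut.conj m).toMonoidHom (MulAut.conj m).injective x
      simpa using h2
    rw [h1]; exact hx.2
  · simp only [mul_one, mul_inv_cancel]; exact Subgroup.one_mem _
  · intro x y _ _ hx hy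
    have : m * (x * y) * m⁻¹ = (m * x * m⁻¹) * (m * y * m⁻¹) := by group
    rw [this]; exact Subgroup.mul_mem _ hx hy
  · intro x _ hx
    have : m * x⁻¹ * m⁻¹ = (m * x * m⁻¹)⁻¹ := by group
    rw [this]; exact Subgroup.inv_mem _ hx

theorem op_pow [Fact p.Prime] {X : Type*} [Group X] {M : Subgroup X} [Finite M] {m : X} (hm : m ∈ M) :
    ∃ k : ℕ, m ^ p ^ k ∈ op p M := by
  have hpos : 0 < orderOf (⟨m, hm⟩ : M) := orderOf_pos _
  rw [Subgroup.orderOf_mk] at hpos
  obtain ⟨k, r, hr, e⟩ := Nat.exists_eq_pow_mul_and_not_dvd hpos.ne' p (Fact.out : p.Prime).ne_one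
  refine ⟨k, Subgroup.subset_closure ⟨M.pow_mem hm _, ?_⟩⟩
  have h1 : orderOf (m ^ p ^ k) = r := by
    rw [orderOf_pow_of_dvd (pow_pos (Fact.out : p.Prime).pos _).ne' (by rw [e]; exact Dvd.intro _ rfl), e]
    exact Nat.mul_div_cancel_left _ (pow_pos (Fact.out : p.Prime).pos _)
  rw [h1]
  exact ((Nat.Prime.coprime_iff_not_dvd Fact.out).2 hr).symm

theorem op_sylow [Fact p.Prime] {X : Type*} [Group X] {V M : Subgroup X} [Finite M] (hV : SylIn p V M) :
    ∀ m ∈ M, ∃ v ∈ V, ∃ l ∈ op p M, m = v * l :=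
  mul_of_sylow hV op_le op_normal fun _ hm => op_pow hm

/-- restriction of the `p'`-elements. -/
theorem op_restrict [Fact p.Prime] (hPR : P ≤ R) (hRS : R ≤ S) {γ : MulAut R} (hγ : γ ∈ op p (st F R P)) :
    ∃ l ∈ op p (F.autGroup P), ∀ x ∈ P, fn γ x = fn l x := by
  have hPS := hPR.trans hRS
  refine Subgroup.closure_induction (p := fun γ _ => ∃ l ∈ op p (F.autGroup P), ∀ x ∈ P, fn γ x = fn l x)
    ?_ ?_ ?_ ?_ hγ
  · rintro γ ⟨⟨h1, h2⟩, h3⟩
    have hi : IsIso F P P (fn γ) := by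
      refine ((fn_iso hRS h1).isMap.mono hPR).isIso_of (fun x hx => (h2 x (hPR hx)).1 hx) fun y hy => ?_
      refine ⟨fn γ⁻¹ y, ?_, fn_apply_inv γ (hPR hy)⟩
      rw [h2 _ (fn_mem γ⁻¹ (hPR hy)), fn_apply_inv γ (hPR hy)]
      exact hy
    refine ⟨hi.aut, Subgroup.subset_closure ⟨hi.aut_mem, ?_⟩, fun x hx => (fn_aut hi hx).symm⟩
    refine Nat.Coprime.coprime_dvd_left ?_ h3
    refine orderOf_restrict_dvd hPR fun x hx => ?_
    rw [← fn_apply _ hx, ← fn_apply _ (hPR hx), fn_aut hi hx]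
  · exact ⟨1, Subgroup.one_mem _, fun x hx => by rw [fn_one hx, fn_one (hPR hx)]⟩
  · rintro γ δ _ _ ⟨l, hl, e⟩ ⟨l', hl', e'⟩
    refine ⟨l * l', Subgroup.mul_mem _ hl hl', fun x hx => ?_⟩
    rw [fn_mul _ _ (hPR hx), fn_mul _ _ hx, e' x hx, e _ (fn_mem l' hx)]
  · rintro γ _ ⟨l, hl, e⟩
    refine ⟨l⁻¹, Subgroup.inv_mem _ hl, fun x hx => ?_⟩
    have h1 := e _ (fn_mem l⁻¹ hx)
    rw [fn_apply_inv l hx] at h1
    have h2 := fn_inv_apply γ (hPR (fn_mem l⁻¹ hx))
    rw [h1] at h2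
    exact h2

/-- Automorphisms of `P` extending to a proper overgroup lie in `Aut_S(P) O^p(Aut_F(P))`. -/
theorem ls_of_edge [Fact p.Prime] [Finite S] (hS : IsPGroup p S) (hG : Above F p P)
    (hfn : F.IsFullyNormalized P) (hreach : ∀ Q, F.IsConj P Q → Reach F Q P) :
    ∀ (m : ℕ) (R : Subgroup Ω) (g : Ω → Ω), Nat.card S - Nat.card R = m → P < R →
      R ≤ normalizerIn S P → IsMap F R g → IsIso F P P g →
      ∃ a ∈ autInducedBy S P ⊔ op p (F.autGroup P), ∀ x ∈ P, g x = fn a x := by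
  have hPS : P ≤ S := hfn.1
  have hPfin : Finite P := finite_of_le hPS
  have hcP : F.IsConj P P := isConj_refl F hPS
  intro m
  induction m using Nat.strong_induction_on with
  | _ m ih =>
  intro R g hm hPR hRN hg hgP
  have hgi := hg.isIso
  obtain ⟨R₂, hR₂def⟩ : ∃ R₂, R₂ = img R g := ⟨_, rfl⟩
  rw [← hR₂def] at hgi
  have hRS : R ≤ S := hg.le
  have hR₂S : R₂ ≤ S := hgi.le'
  have hR₂fin : Finite R₂ := finite_of_le hR₂S
  have hfinM : Finite (MulAut R₂) := finite_mulAut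
  have hcR := hgi.card_eq
  have hR₂N : R₂ ≤ normalizerIn S P := by
    intro y hy
    obtain ⟨x, hx, rfl⟩ := hgi.surj hy
    exact map_mem_norm hg hRN hPR.le hgP hx
  have hPR₂ : P ≤ R₂ := by
    intro y hy
    obtain ⟨x, hx, rfl⟩ := hgP.surj hy
    exact hgi.mem (hPR.le hx)
  have hPltR₂ : P < R₂ := lt_of_le_of_ne hPR₂ fun e => by
    have h1 := card_lt_of_lt hPR hRS
    rw [← e] at hcR; omega
  obtain ⟨U, hU, hUn⟩ := hG P R₂ hcP hPltR₂ hR₂S
  by_cases hnk : R = normalizerIn S P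
  · -- `R₂ = R = N_S(P)`
    have hRR : R₂ = R := by
      have hfin : Finite (normalizerIn S P) := finite_of_le normalizerIn_le
      rw [hnk] at hcR ⊢
      exact Subgroup.eq_of_le_of_card_ge hR₂N hcR.le
    subst hRR
    have hast : hgi.aut ∈ st F R₂ P := by
      refine ⟨hgi.aut_mem, fun x hx => ?_⟩
      rw [fn_aut hgi hx]
      constructor
      · exact fun h => hgP.mem h
      · intro h
        obtain ⟨x', hx', e⟩ := hgP.surj h
        rw [← hg.inj (hPR₂ hx') hx e]; exact hx'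
    obtain ⟨V, hV⟩ : ∃ V, SylIn p V (st F R₂ P) := by
      obtain ⟨V, _, hV⟩ := exists_sylIn (p := p) (A := st F R₂ P) (B := ⊥) bot_le (IsPGroup.of_bot)
      exact ⟨V, hV⟩
    obtain ⟨v, hv, l, hl, e⟩ := op_sylow hV _ hast
    obtain ⟨l', hl', el⟩ := op_restrict hPR₂ hR₂S hl
    obtain ⟨θ, hθ, hθV⟩ := exists_theta hUn hU (hV.le.trans fun γ hγ => hγ.1) hV.isP
    obtain ⟨s, hs, hs'⟩ := hθV v hv
    have hvst := hV.le hv
    have hθP := hθ.restrict hPR₂
    have hUfin : Finite U := finite_of_le hθ.le'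
    have hP₂fin : Finite (img P θ) := finite_of_le hθP.le'
    have hUN : U ≤ normalizerIn S (img P θ) := by
      intro y hy
      obtain ⟨x, hx, rfl⟩ := hθ.surj hy
      exact map_mem_norm hθ.isMap hRN hPR₂ hθP hx
    have hsN : s ∈ normalizerIn S (img P θ) := by
      rw [mem_normalizerIn_iff]
      refine ⟨hs, fun y hy => ?_⟩
      obtain ⟨x, hx, rfl⟩ := hθP.surj hy
      rw [← hs' x (hPR₂ hx)]
      exact hθP.mem ((hvst.2 x (hPR₂ hx)).1 hx)
    have hfinN : Finite (normalizerIn S (img P θ)) := finite_of_le normalizerIn_le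
    have hUe : U = normalizerIn S (img P θ) := by
      refine Subgroup.eq_of_le_of_card_ge hUN ?_
      rw [← hθ.card_eq, hnk]
      exact hfn.2 _ hθP.isConj
    have hsU : s ∈ U := by rw [hUe]; exact hsN
    obtain ⟨n, hn, rfl⟩ := hθ.surj hsU
    have hvn : ∀ x ∈ R₂, fn v x = n * x * n⁻¹ := by
      intro x hx
      have h1 := hs' x hx
      rw [← hθ.isMap.map_conj hn hx] at h1
      exact hθ.isMap.inj (fn_mem _ hx) (Subgroup.mul_mem _ (Subgroup.mul_mem _ hn hx) (Subgroup.inv_mem _ hn)) h1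
    have hnN := hRN hn
    refine ⟨cj P hnN.2 * l', Subgroup.mul_mem _ ((le_sup_left : autInducedBy S P ≤ _) (cj_mem hnN.2 hnN.1))
      ((le_sup_right : op p (F.autGroup P) ≤ _) hl'), fun x hx => ?_⟩
    rw [fn_mul _ _ hx, fn_cj hnN.2 (fn_mem l' hx), ← el x hx, ← fn_aut hgi (hPR₂ hx), e, fn_mul _ _ (hPR₂ hx),
      hvn _ (fn_mem l (hPR₂ hx))]
  have hlt : R < normalizerIn S P := lt_of_le_of_ne hRN hnk
  have hlt₂ : R₂ < normalizerIn S P := lt_of_le_of_ne hR₂N fun e => hnk (by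
    have hfin : Finite (normalizerIn S P) := finite_of_le normalizerIn_le
    refine Subgroup.eq_of_le_of_card_ge hRN ?_
    rw [hcR, e])
  obtain ⟨l, hl, θ, σ, hθ, hθ', hσ, hσe⟩ := ext_pair hS hUn hgi hU (M := st F R₂ P) (L := op p (st F R₂ P))
    (X := normalizerIn S P ⊓ normalizerIn S R) (Y := normalizerIn S P ⊓ normalizerIn S R₂)
    (fun γ hγ => hγ.1) (fun V hV _ => op_sylow hV) op_le inf_le_right inf_le_right
    (autInduced_le_st hR₂S) (fun x hx => exists_mem_st hgi hPR.le hgP hx)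
  have hA := lt_inf hS hlt
  have hB := lt_inf hS hlt₂
  rw [sup_eq_right.2 hA.le] at hσ
  rw [sup_eq_right.2 hB.le] at hθ'
  obtain ⟨l', hl', el⟩ := op_restrict hPR₂ hR₂S hl
  have hθP := hθ.restrict hPR₂
  have hlst := op_le hl
  have hl'A := op_le hl'
  have hli := fn_iso hPS hl'A
  have hσP : IsIso F P (img P θ) σ := by
    refine ((hgP.comp hli).comp hθP).congr fun x hx => ?_
    rw [hσe x (hPR.le hx), el _ (hgP.mem hx)]; rfl
  obtain ⟨ψ, hψ, hψi⟩ := hreach (img P θ) hθP.isConj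
  have hτ := hθ'.comp' hψ fun x hx => map_mem_norm hθ' inf_le_left (hPR₂.trans hB.le) hθP hx
  have hτ₂ := hσ.comp' hψ fun x hx => map_mem_norm hσ inf_le_left (hPR.le.trans hA.le) hσP hx
  have hAc := card_lt_of_lt hA hσ.le
  have hBc := card_lt_of_lt hB hθ'.le
  have hAS : Nat.card (normalizerIn S P ⊓ normalizerIn S R : Subgroup Ω) ≤ Nat.card S := card_le_of_le hσ.le le_rfl
  have hBS : Nat.card (normalizerIn S P ⊓ normalizerIn S R₂ : Subgroup Ω) ≤ Nat.card S := card_le_of_le hθ'.le le_rfl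
  obtain ⟨a, ha, ea⟩ := ih _ (by omega) _ _ rfl (hPltR₂.trans hB) inf_le_left hτ (hθP.comp hψi)
  obtain ⟨b, hb, eb⟩ := ih _ (by omega) _ _ rfl (hPR.trans hA) inf_le_left hτ₂ (hσP.comp hψi)
  -- `b = a l g`
  refine ⟨l'⁻¹ * a⁻¹ * b, Subgroup.mul_mem _ (Subgroup.mul_mem _ (Subgroup.inv_mem _ ?_) (Subgroup.inv_mem _ ha)) hb,
    fun x hx => ?_⟩
  · exact (le_sup_right : op p (F.autGroup P) ≤ _) hl'
  · have hx1 := hgP.mem hx
    rw [fn_mul _ _ hx, fn_mul _ _ (fn_mem b hx), ← eb x hx]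
    have h1 : ψ (σ x) = fn a (fn l' (g x)) := by
      rw [hσe x (hPR.le hx), el _ hx1, ← ea _ (fn_mem l' hx1)]
    rw [h1, fn_inv_apply a (fn_mem l' hx1), fn_inv_apply l' hx1]

end H87.PD
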